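import Cfsg.Agent.H9.Util
import Cfsg.Agent.H9.Thompson
import Cfsg.Agent.L0.Dihedral
import Cfsg.Prelude.Def_JComponents
import Cfsg.Prelude.Def_Involutions

/-! Basic facts for the `J(T)`-component analysis: 2-locals, components, straddling subgroups. -/

set_option autoImplicit false
set_option linter.unusedSectionVars false

namespace Cfsg.KS12

open Subgroup Cfsg.H7
open Cfsg.H9 (MaxEA)
open Cfsg.L0 (inverts_pow inverts_mul_left inverts_mul_right exists_conj_of_odd_orderOf_mul)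
open scoped commutatorElement

variable {G : Type*} [Group G]

instance factTwo : Fact (Nat.Prime 2) := ⟨Nat.prime_two⟩

/-- Thompson subgroup -/
abbrev J (T : Subgroup G) : Subgroup G := thompsonSubgroupOf 2 T
/-- `Ω₁ Z` -/
abbrev Om (T : Subgroup G) : Subgroup G := omegaOneCenter 2 T
/-- `O₂` -/
abbrev O2 (T : Subgroup G) : Subgroup G := pCoreOf 2 T

theorem omegaCenterOf_eq (T : Subgroup G) : omegaCenterOf T = Om T := rfl

theorem wOf_eq (K : Subgroup G) : wOf K = ⁅Om (O2 K), K⁆ := rfl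

theorem syl_iff [Finite G] {T L : Subgroup G} : IsSylowTwoIn T L ↔ H7.IsSylowIn 2 T L :=
  ⟨fun h => isSylowIn_of_not_dvd_relIndex h.2.1 h.1 (H9.not_two_dvd_of_odd h.2.2),
    fun h => ⟨h.le, h.isPGroup, H9.odd_of_not_two_dvd h.not_dvd_relIndex⟩⟩

/-- the standing hypotheses -/
structure ZN (G : Type*) [Group G] : Prop where
  hL : IsCharacteristicTwoType G
  hN : ∀ N : Subgroup G, IsTwoLocal N → Group.IsSolvable N
  hZ : ∀ S : Sylow 2 G, centralizer (omegaCenterOf (S : Subgroup G) : Set G) ≤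
    normalizer ((S : Subgroup G) : Set G)

/-! ### 2-local subgroups -/

theorem isTwoLocal_normalizer {R : Subgroup G} (h : IsPGroup 2 R) (h1 : R ≠ ⊥) :
    IsTwoLocal (normalizer (R : Set G)) := ⟨R, h, h1, rfl⟩

theorem IsTwoLocal.O2_ne_bot {L : Subgroup G} (h : IsTwoLocal L) : O2 L ≠ ⊥ := by
  obtain ⟨R, h1, h2, rfl⟩ := h
  exact ne_bot_of_le (le_pCoreOf h1 le_normalizer le_rfl) h2

theorem IsTwoLocal.cj' {L : Subgroup G} (h : IsTwoLocal L) (g : G) : IsTwoLocal (cj g L) := by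
  obtain ⟨R, h1, h2, rfl⟩ := h
  exact ⟨cj g R, isPGroup_cj h1, fun e => h2 (cj_eq_bot_iff.mp e), cj_normalizer g R⟩

theorem IsMaximalTwoLocal.cj' {L : Subgroup G} (h : IsMaximalTwoLocal L) (g : G) :
    IsMaximalTwoLocal (cj g L) := by
  refine ⟨IsTwoLocal.cj' h.1 g, fun N hN hle => ?_⟩
  rw [← h.2 (cj g⁻¹ N) (IsTwoLocal.cj' hN _) (cj_le_iff.mp hle), cj_cj_inv]

theorem exists_max [Finite G] {N : Subgroup G} (h : IsTwoLocal N) :
    ∃ L, IsMaximalTwoLocal L ∧ N ≤ L := by
  obtain ⟨L, h1, h2⟩ := Finite.exists_le_maximal (p := fun L : Subgroup G => IsTwoLocal L) h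
  exact ⟨L, ⟨h2.prop, fun N' h3 h4 => (h2.eq_of_ge h3 h4)⟩, h1⟩

theorem IsMaximalTwoLocal.normalizer_eq {L R : Subgroup G} (h : IsMaximalTwoLocal L)
    (hR : IsPGroup 2 R) (h1 : R ≠ ⊥) (hn : L ≤ normalizer (R : Set G)) :
    normalizer (R : Set G) = L := h.2 _ (isTwoLocal_normalizer hR h1) hn

theorem IsMaximalTwoLocal.normalizer_le {L : Subgroup G} (h : IsMaximalTwoLocal L) :
    normalizer (L : Set G) ≤ L :=
  (normalizer_le_normalizer_pCoreOf 2 L).trans (IsMaximalTwoLocal.normalizer_eq h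
    (isPGroup_pCoreOf 2 L) (IsTwoLocal.O2_ne_bot h.1) (le_normalizer_pCoreOf 2 L)).le

theorem mem_of_cj_le [Finite G] {L : Subgroup G} (h : IsMaximalTwoLocal L) {g : G}
    (hg : cj g L ≤ L) : g ∈ L :=
  IsMaximalTwoLocal.normalizer_le h (mem_normalizer_of_cj_le hg)

theorem ZN.charP (zn : ZN G) {L : Subgroup G} (h : IsTwoLocal L) :
    centralizer (O2 L : Set G) ≤ O2 L := by
  obtain ⟨R, h1, h2, rfl⟩ := h
  have h3 : IsCharP 2 (normalizer (R : Set G)) := isCharP_iff.mpr (zn.hL.2 R h1 h2)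
  refine le_trans (le_inf ?_ le_rfl) h3
  exact (centralizer_anti (le_pCoreOf h1 le_normalizer le_rfl)).trans (centralizer_le_normalizer _)

theorem IsTwoLocal.ne_top (hO : pCore 2 G = ⊥) {L : Subgroup G} (h : IsTwoLocal L) : L ≠ ⊤ := by
  rintro rfl
  exact IsTwoLocal.O2_ne_bot h (by rw [O2, pCoreOf_top, hO])

theorem centralizer_le_of_local {z : G} (h1 : z ≠ 1) (h2 : z ^ 2 = 1) :
    IsTwoLocal (normalizer (zpowers z : Set G)) ∧
      centralizer {z} ≤ normalizer (zpowers z : Set G) :=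
  ⟨isTwoLocal_normalizer (isPGroup_zpowers ⟨1, by simpa using h2⟩) (by simpa using h1),
    by rw [← H7.centralizer_zpowers]; exact centralizer_le_normalizer _⟩

/-! ### strongly embedded subgroups have one class of involutions -/

theorem exists_involution_commute [Finite G] {a b : G} (ha : a * a = 1) (hb : b * b = 1)
    (h : ¬ Odd (orderOf (a * b))) : ∃ z : G, z ≠ 1 ∧ z * z = 1 ∧ a * z = z * a ∧ b * z = z * b := by
  obtain ⟨k, hk⟩ := Nat.not_odd_iff_even.mp h
  have hpos := orderOf_pos (a * b)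
  have h2 : (a * b) ^ k * (a * b) ^ k = 1 := by rw [← pow_add, ← hk, pow_orderOf_eq_one]
  have hi : ((a * b) ^ k)⁻¹ = (a * b) ^ k := inv_eq_of_mul_eq_one_right h2
  refine ⟨(a * b) ^ k, pow_ne_one_of_lt_orderOf (by omega) (by omega), h2, ?_, ?_⟩
  · have := inverts_pow (inverts_mul_left ha hb) k
    rw [hi] at this
    exact mul_inv_eq_iff_eq_mul.mp this
  · have := inverts_pow (inverts_mul_right ha hb) k
    rw [hi] at this
    exact mul_inv_eq_iff_eq_mul.mp this

theorem spe_conj [Finite G] {X : Subgroup G} (h : H9.SPE 2 X ⊤) {s t : G} (hs : s ∈ X)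
    (ht : t ∈ X) (hs1 : s ≠ 1) (ht1 : t ≠ 1) (hs2 : s * s = 1) (ht2 : t * t = 1) :
    ∃ g ∈ X, g * s * g⁻¹ = t := by
  obtain ⟨g, hg⟩ : ∃ g, g ∉ X := by
    by_contra hc
    push Not at hc
    exact h.ne (eq_top_iff.mpr fun x _ => hc x)
  have p2 : ∀ {x : G}, x * x = 1 → ∃ k : ℕ, x ^ 2 ^ k = 1 := fun hx => ⟨1, by rw [pow_one, sq, hx]⟩
  have hu : g * s * g⁻¹ ∉ X := fun h' => hg (h.mem_of_conj_mem trivial (p2 hs2) hs1 hs h')
  have hu2 : (g * s * g⁻¹) * (g * s * g⁻¹) = 1 := by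
    calc _ = g * (s * s) * g⁻¹ := by group
      _ = 1 := by rw [hs2]; group
  have key : ∀ x ∈ X, x ≠ 1 → x * x = 1 → ∃ c, c * x * c⁻¹ = g * s * g⁻¹ := by
    intro x hx h1 h2
    by_cases ho : Odd (orderOf (x * (g * s * g⁻¹)))
    · obtain ⟨c, -, hc⟩ := exists_conj_of_odd_orderOf_mul h2 hu2 ho
      exact ⟨c, hc⟩
    · obtain ⟨z, hz1, hz2, hz3, hz4⟩ := exists_involution_commute h2 hu2 ho
      have hz : z ∈ X := h.centralizer_le hx h1 (p2 h2)
        ⟨trivial, mem_centralizer_singleton_iff.mpr hz3.symm⟩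
      exact absurd (h.centralizer_le hz hz1 (p2 hz2)
        ⟨trivial, mem_centralizer_singleton_iff.mpr hz4⟩) hu
  obtain ⟨c, hc⟩ := key t ht ht1 ht2
  have e : (c⁻¹ * g) * s * (c⁻¹ * g)⁻¹ = t := by
    calc _ = c⁻¹ * (g * s * g⁻¹) * c := by group
      _ = t := by rw [← hc]; group
  exact ⟨_, h.mem_of_conj_mem trivial (p2 hs2) hs1 hs (e ▸ ht), e⟩

/-! ### components -/

theorem relIndex_cj (g : G) (A B : Subgroup G) : (cj g A).relIndex (cj g B) = A.relIndex B :=
  relIndex_map_map_of_injective A B (MulAut.conj g).injective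

theorem cj_wOf (g : G) (K : Subgroup G) : cj g (wOf K) = wOf (cj g K) := by
  rw [wOf_eq, wOf_eq, cj_commutator, cj_omegaOneCenter, cj_pCoreOf]

theorem normalizer_le_normalizer_wOf (K : Subgroup G) :
    normalizer (K : Set G) ≤ normalizer (wOf K : Set G) := fun g hg => by
  rw [mem_normalizer_iff_cj, cj_wOf, cj_eq_of_mem_normalizer hg]

theorem closure_odd_eq (K : Subgroup G) :
    closure {g : G | g ∈ K ∧ Odd (orderOf g)} = pResidualOf 2 K := by
  rw [pResidualOf_eq_closure]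
  congr 1; ext x; simp

theorem comp_congr {T T' K : Subgroup G} (e : J T = J T') (h : IsJComponent T K) :
    IsJComponent T' K := by
  unfold IsJComponent at h ⊢
  unfold J at e
  rwa [← e]

theorem comp_cj [Finite G] {T K : Subgroup G} (h : IsJComponent T K) (g : G) :
    IsJComponent (cj g T) (cj g K) := by
  obtain ⟨h1, h2, h3, h4, h5, h6⟩ := h
  refine ⟨?_, ?_, ?_, ?_, ?_, ?_⟩
  · rw [closure_odd_eq] at h1 ⊢
    rw [← cj_pResidualOf, h1]
  · rw [← H9.cj_J, ← cj_commutator, h2]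
  · rw [← cj_pCoreOf, relIndex_cj, h3]
  · intro S hS hle
    have := h4 (cj g⁻¹ S) (by
      have := (syl_iff.mp hS).cj g⁻¹
      rw [← H9.cj_J, ← cj_sup, cj_inv_cj] at this
      exact syl_iff.mpr this) (by rw [← H9.cj_J] at hle; exact cj_le_iff.mp hle)
    rw [← H9.cj_J] at this
    rw [← H9.cj_J, ← this, cj_cj_inv]
  · rw [← cj_wOf, card_cj, h5]
  · intro w hw
    rw [← cj_wOf, mem_cj] at hw
    have := h6 _ hw
    calc w * w = g * (g⁻¹ * w * g * (g⁻¹ * w * g)) * g⁻¹ := by group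
      _ = 1 := by rw [this]; group

section Comp

variable [Finite G] {T K : Subgroup G} (h : IsJComponent T K)
include h

theorem comp_res : pResidualOf 2 K = K := by rw [← closure_odd_eq]; exact h.1

theorem comp_comm : ⁅K, J T⁆ = K := h.2.1

theorem comp_idx : (O2 K).relIndex K = 3 := h.2.2.1

theorem comp_card : Nat.card (wOf K) = 4 := h.2.2.2.2.1

theorem comp_J_le : J T ≤ normalizer (K : Set G) := by
  have := normalizer_commutator_ge_right K (J T)
  rwa [comp_comm h] at this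

theorem comp_not_isPGroup : ¬ IsPGroup 2 K := fun hp => by
  have := comp_idx h
  rw [O2, pCoreOf_eq_self_iff.mpr hp, relIndex_self] at this
  omega

omit h in
theorem wOf_le_Om (K : Subgroup G) : wOf K ≤ Om (O2 K) :=
  commutator_le_left_of_le_normalizer ((le_normalizer_pCoreOf 2 K).trans
    (normalizer_le_normalizer_omegaOneCenter 2 _))

omit h in
theorem wOf_le (K : Subgroup G) : wOf K ≤ O2 K := (wOf_le_Om K).trans (omegaOneCenter_le 2 _)

omit h in
theorem ea_wOf (K : Subgroup G) : IsElementaryAbelian 2 (wOf K) :=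
  ea_mono (ea_omegaOneCenter 2 _) (wOf_le_Om K)

omit h in
theorem isPGroup_wOf (K : Subgroup G) : IsPGroup 2 (wOf K) := ea_isPGroup (ea_wOf K)

omit h in
theorem O2_le_centralizer_wOf (K : Subgroup G) : O2 K ≤ centralizer (wOf K : Set G) :=
  (le_centralizer_omegaOneCenter 2 _).trans (centralizer_anti (wOf_le_Om K))

theorem comp_W_ne_bot : wOf K ≠ ⊥ := fun e => by
  have := comp_card h
  rw [e, card_bot] at this
  omega

theorem comp_W_comm : ⁅wOf K, K⁆ = wOf K :=
  commutator_commutator_of_pResidualOf (comp_res h) (isPGroup_wOf K)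

theorem comp_not_le_centralizer : ¬ K ≤ centralizer (wOf K : Set G) := fun hc =>
  comp_W_ne_bot h (by rw [← comp_W_comm h]; exact commutator_eq_bot_iff'.mpr hc)

theorem comp_W_local : IsTwoLocal (normalizer (wOf K : Set G)) :=
  isTwoLocal_normalizer (isPGroup_wOf K) (comp_W_ne_bot h)

omit h in
theorem le_normalizer_wOf (K : Subgroup G) : K ≤ normalizer (wOf K : Set G) :=
  le_normalizer.trans (normalizer_le_normalizer_wOf K)

theorem comp_J_le_W : J T ≤ normalizer (wOf K : Set G) :=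
  (comp_J_le h).trans (normalizer_le_normalizer_wOf K)

/-- an element of order three generating `K` modulo `O₂(K)` -/
theorem comp_exists_y : ∃ y ∈ K, y ^ 3 = 1 ∧ y ∉ O2 K ∧ O2 K ⊔ zpowers y = K := by
  have : Fact (Nat.Prime 3) := ⟨Nat.prime_three⟩
  obtain ⟨y, hy, h1, h3⟩ := H9.exists_mem_pow_eq_one_of_dvd (p := 3) (K := K)
    (comp_idx h ▸ H9.relIndex_dvd_card' _ _)
  have hn : y ∉ O2 K := fun hm => by
    obtain ⟨k, hk⟩ := isPGroup_iff_mem.mp (isPGroup_pCoreOf 2 K) y hm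
    refine h1 (eq_one_of_coprime_of_pow ?_ hk)
    rw [orderOf_eq_prime h3 h1]; norm_num
  refine ⟨y, hy, h3, hn, ?_⟩
  have := H9.sup_zpowers_eq_of_relIndex_prime (X := O2 K) (Y := K)
    (by rw [comp_idx h]; exact Nat.prime_three) hy hn
  rwa [inf_of_le_left (pCoreOf_le 2 K)] at this

theorem comp_W_inf : wOf K ⊓ centralizer (K : Set G) = ⊥ := by
  obtain ⟨y, hy, h3, -, e⟩ := comp_exists_y h
  have : IsMulCommutative (wOf K) := (ea_wOf K).1
  have hn : zpowers y ≤ normalizer (wOf K : Set G) := (zpowers_le.mpr hy).trans (le_normalizer_wOf K)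
  have h1 : ⁅wOf K, zpowers y⁆ = wOf K := by
    rw [← commutator_sup_of_le_centralizer hn (O2_le_centralizer_wOf K), sup_comm, e, comp_W_comm h]
  have h2 := H9.commutator_inf_centralizer_eq_bot hn (H9.coprime_of_odd_of_isPGroup (by
    rw [Nat.card_zpowers]
    exact Odd.of_dvd_nat (by decide : Odd 3) (orderOf_dvd_of_pow_eq_one h3)) (isPGroup_wOf K))
  rw [h1] at h2
  exact eq_bot_iff.mpr ((inf_le_inf_left _ (centralizer_anti (zpowers_le.mpr hy))).trans h2.le)

/-- `K J(T)` does not normalize a 2-group containing `J(T)` -/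
theorem comp_not_le_normalizer {R : Subgroup G} (hR : IsPGroup 2 R) (h1 : J T ≤ R) :
    ¬ K ≤ normalizer (R : Set G) := fun hn =>
  comp_not_isPGroup h (hR.to_le (by
    rw [← comp_comm h]
    exact (commutator_mono le_rfl h1).trans (commutator_le_right_of_le_normalizer hn)))

/-- an element normalizing `K` centralizes or inverts `y` modulo `O₂(K)` -/
theorem comp_conj_y {y : G} (hy : y ∈ K) (hy' : y ∉ O2 K) {x : G}
    (hx : x ∈ normalizer (K : Set G)) :
    (∃ q ∈ O2 K, x * y * x⁻¹ = y * q) ∨ ∃ q ∈ O2 K, x * y * x⁻¹ = y⁻¹ * q := by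
  classical
  have hn : (O2 K |>.subgroupOf K).Normal :=
    normal_subgroupOf_of_le_normalizer (le_normalizer_pCoreOf 2 K)
  have hxy : x * y * x⁻¹ ∈ K := (mem_normalizer_iff.mp hx y).mp hy
  have hxy' : x * y * x⁻¹ ∉ O2 K := fun hm =>
    hy' ((mem_normalizer_iff.mp (normalizer_le_normalizer_pCoreOf 2 K hx) y).mpr hm)
  have hc : Nat.card (K ⧸ (O2 K).subgroupOf K) = 3 := comp_idx h
  set a : K ⧸ (O2 K).subgroupOf K := QuotientGroup.mk ⟨y, hy⟩
  set b : K ⧸ (O2 K).subgroupOf K := QuotientGroup.mk ⟨_, hxy⟩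
  have ha : a ≠ 1 := fun e => hy' ((QuotientGroup.eq_one_iff (⟨y, hy⟩ : K)).mp e)
  have hb : b ≠ 1 := fun e => hxy' ((QuotientGroup.eq_one_iff (⟨_, hxy⟩ : K)).mp e)
  have : Fact (Nat.Prime 3) := ⟨Nat.prime_three⟩
  have ho : orderOf a = 3 := orderOf_eq_prime (by rw [← hc]; exact pow_card_eq_one') ha
  have hba : b = a ∨ b = a⁻¹ := by
    have hm : b ∈ zpowers a := by
      rw [zpowers_eq_top_of_prime_card hc ha]; trivial
    obtain ⟨n, hn, e⟩ := (mem_zpowers_iff_mem_range_orderOf.trans Finset.mem_image).mp hm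
    rw [ho, Finset.mem_range] at hn
    have h3 : a ^ 3 = 1 := by rw [← ho]; exact pow_orderOf_eq_one a
    interval_cases n
    · exact absurd (by simpa using e.symm) hb
    · left; simpa using e.symm
    · right; rw [← e, eq_inv_iff_mul_eq_one, ← pow_succ, h3]
  rcases hba with e | e
  · exact Or.inl ⟨y⁻¹ * (x * y * x⁻¹), QuotientGroup.eq (s := (O2 K).subgroupOf K).mp e.symm,
      by group⟩
  · refine Or.inr ⟨y * (x * y * x⁻¹), ?_, by group⟩
    have : (QuotientGroup.mk (⟨y, hy⟩⁻¹ : K) : K ⧸ (O2 K).subgroupOf K) = b := by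
      rw [e]; rfl
    simpa [mem_subgroupOf] using QuotientGroup.eq.mp this

/-- some element of a maximal elementary abelian subgroup inverts `y` modulo `O₂(K)` -/
theorem comp_exists_inv {y : G} (hy : y ∈ K) (hy' : y ∉ O2 K)
    (e : O2 K ⊔ zpowers y = K) :
    ∃ A, MaxEA 2 T A ∧ ∃ a ∈ A, ∃ q ∈ O2 K, a * y * a⁻¹ = y⁻¹ * q := by
  by_contra hc
  push Not at hc
  have h1 : J T ≤ stab K (O2 K) := by
    refine H9.J_le_iff.mpr fun A hA a ha => ?_
    have han := comp_J_le h (hA.le_J ha)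
    have han' := normalizer_le_normalizer_pCoreOf 2 K han
    obtain ⟨q, hq, e1⟩ := (comp_conj_y h hy hy' han).resolve_right
      fun ⟨q, hq, e1⟩ => hc A hA a ha q hq e1
    have : ⁅K, zpowers a⁆ ≤ O2 K := by
      conv_lhs => rw [← e]
      refine sup_commutator_le le_normalizer ((zpowers_le.mpr hy).trans (le_normalizer_pCoreOf 2 K))
        (commutator_le_left_of_le_normalizer (zpowers_le.mpr han')) ?_
      refine H9.commutator_zpowers_le (le_normalizer_pCoreOf 2 K hy) han' ?_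
      have : ⁅y, a⁆ = y * q⁻¹ * y⁻¹ := by
        rw [commutatorElement_def]
        calc _ = y * (a * y * a⁻¹)⁻¹ := by group
          _ = _ := by rw [e1]; group
      rw [this]
      exact (mem_normalizer_iff.mp (le_normalizer_pCoreOf 2 K hy) _).mp (inv_mem hq)
    exact (le_stab_iff.mpr ⟨zpowers_le.mpr han', this⟩) (mem_zpowers a)
  have := (le_stab_iff.mp h1).2
  rw [comp_comm h] at this
  exact hy' (this hy)

end Comp

end Cfsg.KS12
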