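import Mathlib.GroupTheory.SpecificGroups.Alternating.Simple
import Cfsg.Agent.L0.Components
import Cfsg.Agent.H5.Burnside
import Cfsg.Agent.H7.SylowIn

/-!
Subgroups of a symmetric group containing 3-cycles: `altOn s` (the alternating group on a subset),
the classes `cls H x` of points joined by 3-cycles of `H`, and the identification of a normal
quasisimple self-centralizing subgroup with some `altOn s`.
-/

set_option autoImplicit false
set_option linter.unusedSectionVars false

namespace Cfsg.L0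

open Subgroup Equiv Equiv.Perm

/-! ### Perfect groups on small sets -/

theorem isSolvable_perm_of_card_le {β : Type*} [Finite β] (h : Nat.card β ≤ 4) :
    Group.IsSolvable (Perm β) := by
  refine H5.isSolvable_of_card_dvd_pow_mul_pow Nat.prime_two Nat.prime_three (a := 3) (b := 1) ?_
  rw [Nat.card_perm]
  exact (Nat.factorial_dvd_factorial h).trans (by decide)

theorem smul_eq_of_perfect {G β : Type*} [Group G] [MulAction G β] {K : Subgroup G}
    (hK : ⁅K, K⁆ = K) (S : Set β) (hS : S.Finite) (hc : S.ncard ≤ 4)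
    (hinv : ∀ k ∈ K, ∀ x ∈ S, k • x ∈ S) : ∀ k ∈ K, ∀ x ∈ S, k • x = x := by
  let T : SubMulAction K β :=
    { carrier := S, smul_mem' := fun k x hx => hinv k k.2 x hx }
  have : Finite T := hS
  have hs : Group.IsSolvable (Perm T) := isSolvable_perm_of_card_le (by
    change Nat.card S ≤ 4
    rwa [Nat.card_coe_set_eq])
  have hp : ⁅(⊤ : Subgroup K), (⊤ : Subgroup K)⁆ = ⊤ := by
    rw [← map_subtype_inj, map_commutator, ← MonoidHom.range_eq_map, range_subtype, hK]
  have h1 : (⊤ : Subgroup K).map (MulAction.toPermHom K T) = ⊥ :=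
    eq_bot_of_perfect_of_isSolvable (by rw [← map_commutator, hp]) inferInstance
  intro k hk x hx
  have h2 : MulAction.toPermHom K T ⟨k, hk⟩ = 1 := by
    have : MulAction.toPermHom K T ⟨k, hk⟩ ∈ (⊥ : Subgroup (Perm T)) :=
      h1 ▸ mem_map_of_mem _ (mem_top _)
    exact this
  have h3 := congrArg (fun f : Perm T => ((f ⟨x, hx⟩ : T) : β)) h2
  exact h3

variable {α : Type*} [Fintype α] [DecidableEq α]

/-! ### The alternating group on a subset -/

/-- Even permutations supported in `s`. -/
def altOn (s : Finset α) : Subgroup (Perm α) :=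
  (alternatingGroup s).map (Perm.ofSubtype : Perm s →* Perm α)

theorem mem_altOn {s : Finset α} {g : Perm α} : g ∈ altOn s ↔ sign g = 1 ∧ g.support ⊆ s := by
  rw [altOn, alternatingGroup.map_ofSubtype, mem_inf, Perm.mem_range_ofSubtype_iff,
    mem_alternatingGroup, and_comm]
  simp

theorem mem_altOn' {s : Finset α} {g : Perm α} :
    g ∈ altOn s ↔ sign g = 1 ∧ ∀ x, x ∉ s → g x = x := by
  rw [mem_altOn]
  refine and_congr Iff.rfl ⟨fun h x hx => ?_, fun h x hx => ?_⟩
  · exact notMem_support.1 fun h' => hx (h h')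
  · by_contra h'
    exact mem_support.1 hx (h x h')

theorem altOn_le_alt (s : Finset α) : altOn s ≤ alternatingGroup α := fun _ h =>
  mem_alternatingGroup.2 (mem_altOn.1 h).1

theorem altOn_mono {s t : Finset α} (h : s ⊆ t) : altOn s ≤ altOn t := fun _ hg =>
  mem_altOn.2 ⟨(mem_altOn.1 hg).1, (mem_altOn.1 hg).2.trans h⟩

theorem altOn_univ : altOn (Finset.univ : Finset α) = alternatingGroup α := by
  ext g
  simp [mem_altOn, mem_alternatingGroup]

/-- `altOn s` is the alternating group on `s`. -/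
noncomputable def altOnEquiv (s : Finset α) : alternatingGroup s ≃* altOn s :=
  (alternatingGroup s).equivMapOfInjective _ Perm.ofSubtype_injective

theorem nonempty_altOn_equiv (s : Finset α) :
    Nonempty (altOn s ≃* alternatingGroup (Fin s.card)) :=
  ⟨(altOnEquiv s).symm.trans (Finset.equivFin s).altCongrHom⟩

theorem card_altOn {s : Finset α} (hs : 2 ≤ s.card) :
    2 * Nat.card (altOn s) = s.card.factorial := by
  have : Nontrivial s := Finset.one_lt_card_iff_nontrivial.1 hs |>.coe_sort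
  rw [← Nat.card_congr (altOnEquiv s).toEquiv, two_mul_nat_card_alternatingGroup, Nat.card_perm]
  simp

theorem isSolvable_altOn {s : Finset α} (hs : s.card ≤ 4) : Group.IsSolvable (altOn s) := by
  have : Group.IsSolvable (Perm s) := isSolvable_perm_of_card_le (by simpa using hs)
  exact Group.isSolvable_of_surjective (f := (altOnEquiv s).toMonoidHom) (altOnEquiv s).surjective

theorem isSimpleGroup_altOn {s : Finset α} (hs : 5 ≤ s.card) : IsSimpleGroup (altOn s) := by
  have : IsSimpleGroup (alternatingGroup s) := alternatingGroup.isSimpleGroup (by simpa using hs)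
  exact (altOnEquiv s).symm.isSimpleGroup

theorem apply_mem_of_mem_altOn {s : Finset α} {g : Perm α} (h : g ∈ altOn s) {x : α}
    (hx : x ∈ s) : g x ∈ s := by
  by_contra h'
  have := g.injective ((mem_altOn'.1 h).2 _ h')
  exact h' (this.symm ▸ hx)

theorem conj_mem_altOn {s t : Finset α} {g h : Perm α} (hg : g ∈ altOn s)
    (hh : ∀ x ∈ s, h x ∈ t) : h * g * h⁻¹ ∈ altOn t := by
  rw [mem_altOn'] at hg ⊢
  refine ⟨by simp [hg.1], fun x hx => ?_⟩
  have : h⁻¹ x ∉ s := fun h' => hx (by simpa using hh _ h')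
  rw [mul_apply, mul_apply, hg.2 _ this]
  simp

theorem mem_normalizer_altOn {s : Finset α} {h : Perm α} (hh : ∀ x ∈ s, h x ∈ s) :
    h ∈ normalizer (altOn s : Set (Perm α)) :=
  H7.mem_normalizer_of_conj_mem fun _ hg => conj_mem_altOn hg hh

theorem commute_of_mem_altOn {s t : Finset α} (hd : Disjoint s t) {g h : Perm α}
    (hg : g ∈ altOn s) (hh : h ∈ altOn t) : Commute g h := by
  refine Perm.Disjoint.commute fun x => ?_
  by_cases hx : x ∈ s
  · exact Or.inr ((mem_altOn'.1 hh).2 x (Finset.disjoint_left.1 hd hx))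
  · exact Or.inl ((mem_altOn'.1 hg).2 x hx)

theorem comm_altOn {s t : Finset α} (hd : Disjoint s t) : ⁅altOn s, altOn t⁆ = ⊥ := by
  rw [commutator_eq_bot_iff_le_centralizer]
  intro g hg
  rw [mem_centralizer_iff]
  intro h hh
  exact (commute_of_mem_altOn hd hg hh).symm

theorem eq_one_of_mem_altOn {s t : Finset α} (hd : Disjoint s t) {g : Perm α}
    (hg : g ∈ altOn s) (hh : g ∈ altOn t) : g = 1 := by
  ext x
  by_cases hx : x ∈ s
  · exact (mem_altOn'.1 hh).2 x (Finset.disjoint_left.1 hd hx)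
  · exact (mem_altOn'.1 hg).2 x hx

theorem swap_mul_swap_mem_altOn {s : Finset α} {a b c d : α} (ha : a ∈ s) (hb : b ∈ s)
    (hc : c ∈ s) (hd : d ∈ s) (hab : a ≠ b) (hcd : c ≠ d) : swap a b * swap c d ∈ altOn s := by
  refine mem_altOn'.2 ⟨by simp [sign_swap hab, sign_swap hcd], fun x hx => ?_⟩
  have h1 : x ≠ a := fun e => hx (e ▸ ha)
  have h2 : x ≠ b := fun e => hx (e ▸ hb)
  have h3 : x ≠ c := fun e => hx (e ▸ hc)
  have h4 : x ≠ d := fun e => hx (e ▸ hd)
  simp [swap_apply_of_ne_of_ne, *]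

theorem exists_eq_swap_mul_swap {c : Perm α} (hc : c.IsThreeCycle) {a : α} (ha : a ∈ c.support) :
    ∃ y z, a ≠ y ∧ a ≠ z ∧ y ≠ z ∧ c = swap a y * swap a z ∧ c.support = {a, y, z} := by
  have h1 := hc.nodup_iff_mem_support.2 ha
  have h2 := hc.support_eq_iff_mem_support.2 ha
  have h3 := hc.eq_swap_mul_swap_iff_mem_support.2 ha
  simp only [List.nodup_cons, List.mem_cons, List.not_mem_nil, or_false, not_or,
    not_false_eq_true, List.nodup_nil, and_true] at h1
  refine ⟨c (c a), c a, h1.1.2, h1.1.1, Ne.symm h1.2, ?_, ?_⟩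
  · generalize c (c a) = z at *
    generalize c a = y at *
    rw [h3]
    ext x
    simp only [coe_mul, Function.comp_apply]
    grind
  · rw [h2, Finset.pair_comm]

theorem altOn_le_of_forall {H : Subgroup (Perm α)} {s : Finset α}
    (h : ∀ c : Perm α, c.IsThreeCycle → c.support ⊆ s → c ∈ H) : altOn s ≤ H := by
  rw [altOn, map_le_iff_le_comap, ← closure_three_cycles_eq_alternating, closure_le]
  intro c hc
  refine h _ ?_ ?_
  · change cycleType _ = _
    rw [cycleType_ofSubtype]
    exact hc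
  · rw [support_ofSubtype]
    intro x hx
    obtain ⟨y, -, rfl⟩ := Finset.mem_map.1 hx
    exact y.2

theorem altOn_eq_closure (s : Finset α) :
    altOn s = closure {c : Perm α | c.IsThreeCycle ∧ c.support ⊆ s} :=
  le_antisymm (altOn_le_of_forall fun _ h1 h2 => subset_closure ⟨h1, h2⟩)
    ((closure_le _).2 fun _ hc => mem_altOn.2 ⟨hc.1.sign, hc.2⟩)

/-! ### Classes of points -/

/-- The 3-cycle on `x, y, z` lies in `H`. -/
def T3 (H : Subgroup (Perm α)) (x y z : α) : Prop := swap x y * swap x z ∈ H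

namespace T3

variable {H : Subgroup (Perm α)} {a b c d : α}

theorem swap23 (h : T3 H a b c) : T3 H a c b := by
  have := H.inv_mem h
  simpa [T3] using this

theorem swap12 (hab : a ≠ b) (hac : a ≠ c) (hbc : b ≠ c) (h : T3 H a b c) : T3 H b a c := by
  have h1 := H.inv_mem h
  have : (swap a b * swap a c)⁻¹ = swap b a * swap b c := by
    ext x
    simp only [mul_inv_rev, swap_inv, coe_mul, Function.comp_apply]
    grind
  rwa [this] at h1

theorem conj {g : Perm α} (hg : g ∈ normalizer (H : Set (Perm α))) (h : T3 H a b c) :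
    T3 H (g a) (g b) (g c) := by
  have h1 := (mem_normalizer_iff.1 hg _).1 h
  have : g * (swap a b * swap a c) * g⁻¹ = swap (g a) (g b) * swap (g a) (g c) := by
    rw [swap_apply_apply, swap_apply_apply]; group
  rwa [this] at h1

theorem four (hab : a ≠ b) (hac : a ≠ c) (hbc : b ≠ c) (had : a ≠ d) (hbd : b ≠ d) (hcd : c ≠ d)
    (h1 : T3 H a b c) (h2 : T3 H a b d) : T3 H a c d := by
  have h3 := h1.conj (le_normalizer h2)
  have e1 : (swap a b * swap a d) a = d := by simp only [coe_mul, Function.comp_apply]; grind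
  have e2 : (swap a b * swap a d) b = a := by simp only [coe_mul, Function.comp_apply]; grind
  have e3 : (swap a b * swap a d) c = c := by simp only [coe_mul, Function.comp_apply]; grind
  rw [e1, e2, e3] at h3
  exact (h3.swap12 had.symm hcd.symm hac).swap23

end T3

/-- `x` and `y` lie in the support of a 3-cycle of `H`. -/
def R3 (H : Subgroup (Perm α)) (x y : α) : Prop := x ≠ y ∧ ∃ z, x ≠ z ∧ y ≠ z ∧ T3 H x y z

namespace R3

variable {H : Subgroup (Perm α)} {x a b : α}

theorem symm (h : R3 H x a) : R3 H a x := by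
  obtain ⟨h1, z, h2, h3, h4⟩ := h
  exact ⟨h1.symm, z, h3, h2, h4.swap12 h1 h2 h3⟩

theorem t3 (ha : R3 H x a) (hb : R3 H x b) (hab : a ≠ b) : T3 H x a b := by
  obtain ⟨hxa, a', hxa', haa', h1⟩ := ha
  obtain ⟨hxb, b', hxb', hbb', h2⟩ := hb
  by_cases e1 : a' = b
  · exact e1 ▸ h1
  by_cases e2 : b' = a
  · exact (e2 ▸ h2).swap23
  by_cases e3 : a' = b'
  · subst e3
    exact T3.four hxa' hxa haa'.symm hxb hbb'.symm hab h1.swap23 h2.swap23
  have h3 := h1.conj (le_normalizer h2.swap23)
  have f1 : (swap x b' * swap x b) x = b := by simp only [coe_mul, Function.comp_apply]; grind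
  have f2 : (swap x b' * swap x b) a = a := by simp only [coe_mul, Function.comp_apply]; grind
  have f3 : (swap x b' * swap x b) a' = a' := by simp only [coe_mul, Function.comp_apply]; grind
  rw [f1, f2, f3] at h3
  have h4 : T3 H a a' x := (h1.swap12 hxa hxa' haa').swap23
  have h5 : T3 H a a' b := (h3.swap12 hab.symm (Ne.symm e1) haa').swap23
  exact (T3.four haa' hxa.symm hxa'.symm hab e1 hxb h4 h5).swap12 hxa.symm hab hxb

theorem conj {g : Perm α} (hg : g ∈ normalizer (H : Set (Perm α))) (h : R3 H x a) :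
    R3 H (g x) (g a) := by
  obtain ⟨h1, z, h2, h3, h4⟩ := h
  exact ⟨g.injective.ne h1, g z, g.injective.ne h2, g.injective.ne h3, h4.conj hg⟩

theorem mono {H' : Subgroup (Perm α)} (hle : H ≤ H') (h : R3 H x a) : R3 H' x a := by
  obtain ⟨h1, z, h2, h3, h4⟩ := h
  exact ⟨h1, z, h2, h3, hle h4⟩

end R3

open Classical in
/-- The class of `x`. -/
noncomputable def cls (H : Subgroup (Perm α)) (x : α) : Finset α :=
  Finset.univ.filter fun a => x = a ∨ R3 H x a

section cls

variable {H : Subgroup (Perm α)} {x y z : α}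

theorem mem_cls : y ∈ cls H x ↔ x = y ∨ R3 H x y := by simp [cls]

theorem mem_cls_self (H : Subgroup (Perm α)) (x : α) : x ∈ cls H x := mem_cls.2 (Or.inl rfl)

theorem mem_cls_symm (h : y ∈ cls H x) : x ∈ cls H y :=
  mem_cls.2 ((mem_cls.1 h).imp Eq.symm R3.symm)

theorem mem_cls_trans (h1 : y ∈ cls H x) (h2 : z ∈ cls H y) : z ∈ cls H x := by
  rcases mem_cls.1 h1 with rfl | h1
  · exact h2
  rcases mem_cls.1 h2 with rfl | h2
  · exact mem_cls.2 (Or.inr h1)
  by_cases e : x = z
  · exact mem_cls.2 (Or.inl e)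
  have h3 := h1.symm.t3 h2 e
  exact mem_cls.2 (Or.inr ⟨e, y, h1.1, h2.1.symm, (h3.swap12 h1.1.symm h2.1 e).swap23⟩)

theorem cls_eq_of_mem (h : y ∈ cls H x) : cls H y = cls H x :=
  Finset.ext fun _ => ⟨mem_cls_trans h, mem_cls_trans (mem_cls_symm h)⟩

theorem cls_eq_or_disjoint (H : Subgroup (Perm α)) (x y : α) :
    cls H x = cls H y ∨ Disjoint (cls H x) (cls H y) := by
  by_cases h : Disjoint (cls H x) (cls H y)
  · exact Or.inr h
  · obtain ⟨z, h1, h2⟩ := Finset.not_disjoint_iff.1 h
    exact Or.inl ((cls_eq_of_mem h1).symm.trans (cls_eq_of_mem h2))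

theorem apply_mem_cls {g : Perm α} (hg : g ∈ normalizer (H : Set (Perm α))) (h : y ∈ cls H x) :
    g y ∈ cls H (g x) :=
  mem_cls.2 ((mem_cls.1 h).imp (congrArg g) (R3.conj hg))

theorem cls_mono {H' : Subgroup (Perm α)} (hle : H ≤ H') (x : α) : cls H x ⊆ cls H' x :=
  fun _ h => mem_cls.2 ((mem_cls.1 h).imp id (R3.mono hle))

theorem t3_of_mem_cls {a b c : α} (ha : a ∈ cls H x) (hb : b ∈ cls H x) (hc : c ∈ cls H x)
    (hab : a ≠ b) (hac : a ≠ c) (hbc : b ≠ c) : T3 H a b c := by
  rw [← cls_eq_of_mem ha] at hb hc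
  exact ((mem_cls.1 hb).resolve_left hab).t3 ((mem_cls.1 hc).resolve_left hac) hbc

theorem altOn_cls_le (H : Subgroup (Perm α)) (x : α) : altOn (cls H x) ≤ H := by
  refine altOn_le_of_forall fun c hc hs => ?_
  obtain ⟨a, ha⟩ := Finset.card_pos.1 (show 0 < c.support.card by rw [hc.card_support]; decide)
  obtain ⟨y, z, h1, h2, h3, h4, h5⟩ := exists_eq_swap_mul_swap hc ha
  rw [h4]
  exact t3_of_mem_cls (hs ha) (hs (by simp [h5])) (hs (by simp [h5])) h1 h2 h3

theorem support_subset_cls {c : Perm α} (hc : c.IsThreeCycle) (hH : c ∈ H) (hx : x ∈ c.support) :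
    c.support ⊆ cls H x := by
  obtain ⟨y, z, h1, h2, h3, h4, h5⟩ := exists_eq_swap_mul_swap hc hx
  have ht : T3 H x y z := by rw [T3, ← h4]; exact hH
  rw [h5]
  intro w hw
  simp only [Finset.mem_insert, Finset.mem_singleton] at hw
  rcases hw with rfl | rfl | rfl
  · exact mem_cls_self _ _
  · exact mem_cls.2 (Or.inr ⟨h1, z, h2, h3, ht⟩)
  · exact mem_cls.2 (Or.inr ⟨h2, y, h1, h3.symm, ht.swap23⟩)

theorem subset_cls_of_altOn_le {s : Finset α} (hs : 3 ≤ s.card) (h : altOn s ≤ H) (hx : x ∈ s) :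
    s ⊆ cls H x := by
  intro y hy
  by_cases e : x = y
  · exact mem_cls.2 (Or.inl e)
  obtain ⟨z, hz, hz'⟩ := Finset.exists_mem_notMem_of_card_lt_card
    (s := ({x, y} : Finset α)) (t := s) (Finset.card_le_two.trans_lt hs)
  simp only [Finset.mem_insert, Finset.mem_singleton, not_or] at hz'
  exact mem_cls.2 (Or.inr ⟨e, z, Ne.symm hz'.1, Ne.symm hz'.2,
    h (swap_mul_swap_mem_altOn hx hy hx hz e (Ne.symm hz'.1))⟩)

/-- A 3-cycle of `H` preserves each class. -/
theorem apply_mem_cls_of_isThreeCycle {c : Perm α} (hc : c.IsThreeCycle) (hH : c ∈ H)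
    (hy : y ∈ cls H x) : c y ∈ cls H x := by
  by_cases h : y ∈ c.support
  · exact mem_cls_trans hy (support_subset_cls hc hH h (apply_mem_support.2 h))
  · rwa [notMem_support.1 h]

theorem sn_altOn_cls (H : Subgroup (Perm α)) (x : α) : SN (altOn (cls H x)) H := by
  set N : Subgroup (Perm α) := closure {c : Perm α | c.IsThreeCycle ∧ c ∈ H} with hN
  have h1 : altOn (cls H x) ≤ N :=
    altOn_le_of_forall fun c hc hs => subset_closure ⟨hc, altOn_cls_le H x (mem_altOn.2 ⟨hc.sign, hs⟩)⟩
  have h2 : N ≤ normalizer (altOn (cls H x) : Set (Perm α)) := (closure_le _).2 fun c hc =>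
    mem_normalizer_altOn fun y hy => apply_mem_cls_of_isThreeCycle hc.1 hc.2 hy
  have h3 : N ≤ H := (closure_le _).2 fun c hc => hc.2
  have h4 : H ≤ normalizer (N : Set (Perm α)) := fun g hg => by
    refine mem_normalizer_of_cj_le ?_
    rw [hN, cj, MonoidHom.map_closure, closure_le]
    rintro _ ⟨c, hc, rfl⟩
    refine subset_closure ⟨?_, H.mul_mem (H.mul_mem hg hc.2) (H.inv_mem hg)⟩
    change cycleType (g * c * g⁻¹) = _
    rw [cycleType_conj]
    exact hc.1
  exact (SN.of_normal h1 h2).trans (SN.of_normal h3 h4)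

end cls

/-- A subgroup normalized by `altOn s` and containing a 3-cycle supported in `s` contains
`altOn s`. -/
theorem altOn_le_of_normalized {N : Subgroup (Perm α)} {s : Finset α}
    (hN : altOn s ≤ normalizer (N : Set (Perm α))) {c : Perm α} (hc : c.IsThreeCycle)
    (hs : c.support ⊆ s) (hcN : c ∈ N) : altOn s ≤ N := by
  obtain ⟨a, ha⟩ := Finset.card_pos.1 (show 0 < c.support.card by rw [hc.card_support]; decide)
  obtain ⟨y, z, h1, h2, h3, h4, h5⟩ := exists_eq_swap_mul_swap hc ha
  have hy : y ∈ s := hs (by simp [h5])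
  have hz : z ∈ s := hs (by simp [h5])
  have ht : T3 N a y z := by rw [T3, ← h4]; exact hcN
  refine (altOn_mono fun d hd => ?_).trans (altOn_cls_le N a)
  by_cases hd' : d ∈ c.support
  · exact support_subset_cls hc hcN ha hd'
  rw [h5] at hd'
  simp only [Finset.mem_insert, Finset.mem_singleton, not_or] at hd'
  have h6 := ht.conj (hN (swap_mul_swap_mem_altOn (hs ha) hy hz hd h1 (Ne.symm hd'.2.2)))
  have e1 : (swap a y * swap z d) a = y := by simp only [coe_mul, Function.comp_apply]; grind
  have e2 : (swap a y * swap z d) y = a := by simp only [coe_mul, Function.comp_apply]; grind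
  have e3 : (swap a y * swap z d) z = d := by simp only [coe_mul, Function.comp_apply]; grind
  rw [e1, e2, e3] at h6
  exact mem_cls.2 (Or.inr ⟨Ne.symm hd'.1, y, h1, hd'.2.1,
    (h6.swap12 h1.symm (Ne.symm hd'.2.1) (Ne.symm hd'.1)).swap23⟩)

/-! ### A normal quasisimple self-centralizing subgroup -/

/-- `K` is a quasisimple normal subgroup of `H` containing its centralizer in `H`. -/
structure QSN {G : Type*} [Group G] (K H : Subgroup G) : Prop where
  qs : QS K
  le : K ≤ H
  norm : H ≤ normalizer (K : Set G)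
  cent : ∀ g ∈ H, g ∈ centralizer (K : Set G) → g ∈ K

theorem qsn_fstar {G : Type*} [Group G] [Finite G] (H : Subgroup G)
    (h : IsQuasisimple (generalizedFittingSubgroup H)) :
    QSN ((generalizedFittingSubgroup H).map H.subtype) H where
  qs := qs_map_subtype_iff.2 (qs_iff.2 h)
  le := map_subtype_le _
  norm := H7.le_normalizer_map_subtype _
  cent g hg hc := by
    refine ⟨⟨g, hg⟩, centralizer_fstar_le H ?_, rfl⟩
    rw [mem_centralizer_iff]
    intro k hk
    exact Subtype.ext (mem_centralizer_iff.1 hc k ⟨k, hk, rfl⟩)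

theorem QSN.sn {G : Type*} [Group G] {K H : Subgroup G} (h : QSN K H) : SN K H :=
  SN.of_normal h.le h.norm

theorem apply_mem_support_of_commute {k u : Perm α} (h : k * u = u * k) {x : α}
    (hx : x ∈ u.support) : k x ∈ u.support := by
  rw [mem_support] at hx ⊢
  intro e
  apply hx
  apply k.injective
  rw [← mul_apply, h, mul_apply, e]

theorem QSN.eq_altOn {K H : Subgroup (Perm α)} (h : QSN K H) {c : Perm α} (hc : c.IsThreeCycle)
    (hH : c ∈ H) : ∃ s : Finset α, 5 ≤ s.card ∧ K = altOn s := by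
  obtain ⟨a, ha⟩ := Finset.card_pos.1 (show 0 < c.support.card by rw [hc.card_support]; decide)
  have hcA : c ∈ altOn (cls H a) := mem_altOn.2 ⟨hc.sign, support_subset_cls hc hH ha⟩
  rcases h.qs.le_or_comm h.sn (sn_altOn_cls H a) with e | e
  · have h5 : 5 ≤ (cls H a).card := by
      by_contra h'
      exact h.qs.not_le_of_isSolvable (isSolvable_altOn (by omega)) e
    refine ⟨_, h5, le_antisymm e ?_⟩
    have := isSimpleGroup_altOn h5
    rcases (normal_subgroupOf_of_le_normalizer ((altOn_cls_le H a).trans h.norm)).eq_bot_or_eq_top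
      with e' | e'
    · exact absurd ((subgroupOf_eq_bot.1 e').eq_bot_of_le e) h.qs.ne_bot
    · exact subgroupOf_eq_top.1 e'
  · exfalso
    have hcK : c ∈ centralizer (K : Set (Perm α)) := commutator_eq_bot_iff_le_centralizer.1 e hcA
    have := smul_eq_of_perfect h.qs.perfect (c.support : Set α) (Finset.finite_toSet _)
      (by rw [Set.ncard_coe_finset, hc.card_support]; decide)
      (fun k hk x hx => apply_mem_support_of_commute (mem_centralizer_iff.1 hcK k hk) hx)
      c (h.cent c hH hcK) a ha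
    exact mem_support.1 ha this

/-- The normalizer of `altOn s` preserves `s`. -/
theorem apply_mem_of_mem_normalizer_altOn {s : Finset α} (hs : 3 ≤ s.card) {g : Perm α}
    (hg : g ∈ normalizer (altOn s : Set (Perm α))) {x : α} (hx : x ∈ s) : g x ∈ s := by
  obtain ⟨y, hy, hy'⟩ := Finset.exists_mem_notMem_of_card_lt_card
    (s := ({x} : Finset α)) (t := s) (by rw [Finset.card_singleton]; omega)
  obtain ⟨z, hz, hz'⟩ := Finset.exists_mem_notMem_of_card_lt_card
    (s := ({x, y} : Finset α)) (t := s) (Finset.card_le_two.trans_lt hs)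
  simp only [Finset.mem_insert, Finset.mem_singleton, not_or] at hy' hz'
  have h1 : T3 (altOn s) x y z := swap_mul_swap_mem_altOn hx hy hx hz (Ne.symm hy') (Ne.symm hz'.1)
  by_contra h'
  have h2 := (mem_altOn'.1 (h1.conj hg)).2 _ h'
  have f1 := g.injective.ne hy'
  have f2 := g.injective.ne hz'.1
  have f3 := g.injective.ne hz'.2
  simp only [coe_mul, Function.comp_apply] at h2
  grind

theorem apply_mem_compl {s : Finset α} {g : Perm α} (hg : ∀ x ∈ s, g x ∈ s) :
    ∀ x ∈ sᶜ, g x ∈ sᶜ := by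
  intro x hx
  rw [Finset.mem_compl] at hx ⊢
  intro h
  have h1 : s.image g = s := Finset.eq_of_subset_of_card_le
    (Finset.image_subset_iff.2 hg) (by rw [Finset.card_image_of_injective _ g.injective])
  rw [← h1] at h
  obtain ⟨y, hy, e⟩ := Finset.mem_image.1 h
  exact hx (g.injective e ▸ hy)

/-- If `K = altOn s` is normal and self-centralizing in `H`, and `H` contains a Sylow
`p`-subgroup of a group `L` containing `altOn sᶜ`, then `p` does not divide `|altOn sᶜ|`. -/
theorem QSN.not_dvd_card_compl {H : Subgroup (Perm α)} {s : Finset α} (hs : 3 ≤ s.card)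
    (h : QSN (altOn s) H) {p : ℕ} [Fact p.Prime] {P L : Subgroup (Perm α)}
    (hP : H7.IsSylowIn p P L) (hPH : P ≤ H) (hL : altOn sᶜ ≤ L) : ¬ p ∣ Nat.card (altOn sᶜ) := by
  intro hd
  have hPn : P ≤ normalizer (altOn sᶜ : Set (Perm α)) := fun g hg =>
    mem_normalizer_altOn (apply_mem_compl fun x hx =>
      apply_mem_of_mem_normalizer_altOn hs (h.norm (hPH hg)) hx)
  have h1 : H7.IsSylowIn p P (P ⊔ altOn sᶜ) := hP.mono le_sup_left (sup_le hP.le hL)
  have h2 := h1.inf_of_normal le_sup_right (sup_le hPn le_normalizer)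
  refine h2.ne_bot hd (eq_bot_iff.2 fun g hg => ?_)
  have h3 : g ∈ altOn s := h.cent g (hPH hg.1)
    (commutator_eq_bot_iff_le_centralizer.1 (comm_altOn disjoint_compl_left) hg.2)
  exact eq_one_of_mem_altOn disjoint_compl_right h3 hg.2

end Cfsg.L0
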