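import Cfsg.Agent.L0.Alt3

/-!
Automorphisms of alternating groups: squares preserve 3-cycles, and automorphisms preserving
3-cycles permute the point stabilizers.
-/

set_option autoImplicit false
set_option linter.unusedSectionVars false

namespace Cfsg.L0

open Subgroup Equiv Equiv.Perm

variable {α : Type*} [Fintype α] [DecidableEq α]

theorem a5_pow : ∀ z : Perm (Fin 5), sign z = 1 → z ^ 2 = 1 ∨ z ^ 15 = 1 := by
  decide +kernel

theorem mul_three_pow (h5 : 5 ≤ Fintype.card α) {c d : Perm α} (hc : c.IsThreeCycle)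
    (hd : d.IsThreeCycle) : (c * d) ^ 2 = 1 ∨ (c * d) ^ 15 = 1 := by
  by_cases h : _root_.Disjoint c.support d.support
  · right
    have h1 : Commute c d := (disjoint_iff_disjoint_support.2 h).commute
    have h2 : c ^ 3 = 1 := by rw [← hc.orderOf, pow_orderOf_eq_one]
    have h3 : d ^ 3 = 1 := by rw [← hd.orderOf, pow_orderOf_eq_one]
    rw [show 15 = 3 * 5 from rfl, pow_mul, h1.mul_pow, h2, h3, mul_one, one_pow]
  · have h1 : (c.support ∪ d.support).card ≤ 5 := by
      have h2 := Finset.card_union_add_card_inter c.support d.support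
      have h3 : 0 < (c.support ∩ d.support).card :=
        Finset.card_pos.2 (Finset.not_disjoint_iff_nonempty_inter.1 h)
      rw [hc.card_support, hd.card_support] at h2
      omega
    obtain ⟨s, hs, -, hs'⟩ := Finset.exists_subsuperset_card_eq (Finset.subset_univ _) h1 h5
    have hm : c * d ∈ altOn s := mul_mem
      (mem_altOn.2 ⟨hc.sign, Finset.subset_union_left.trans hs⟩)
      (mem_altOn.2 ⟨hd.sign, Finset.subset_union_right.trans hs⟩)
    obtain ⟨f⟩ := nonempty_altOn_equiv s
    rw [hs'] at f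
    refine (a5_pow _ (f ⟨_, hm⟩).2).imp (fun e => ?_) (fun e => ?_)
    · have : f (⟨_, hm⟩ ^ 2) = 1 := by rw [map_pow]; exact Subtype.ext e
      exact congrArg Subtype.val ((map_eq_one_iff _ f.injective).1 this)
    · have : f (⟨_, hm⟩ ^ 15) = 1 := by rw [map_pow]; exact Subtype.ext e
      exact congrArg Subtype.val ((map_eq_one_iff _ f.injective).1 this)

theorem exists_six {x : Perm α} (h3 : x ^ 3 = 1) (h1 : x ≠ 1) (hn : ¬ x.IsThreeCycle) :
    ∃ a b, [a, x a, x (x a), b, x b, x (x b)].Nodup := by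
  have hx : ∀ y, x (x (x y)) = y := fun y => by
    have := congrArg (fun σ : Perm α => σ y) h3
    simpa [pow_succ] using this
  obtain ⟨a, ha⟩ : x.support.Nonempty := by
    rw [Finset.nonempty_iff_ne_empty, Ne, support_eq_empty_iff]; exact h1
  have ha' := mem_support.1 ha
  have e1 := hx a
  have e2 := hx (x a)
  by_cases h : x.support ⊆ {a, x a, x (x a)}
  · exfalso
    apply hn
    rw [← card_support_eq_three_iff]
    have : x.support = {a, x a, x (x a)} := h.antisymm (by
      intro y hy
      simp only [Finset.mem_insert, Finset.mem_singleton] at hy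
      rcases hy with rfl | rfl | rfl
      · exact ha
      · exact apply_mem_support.2 ha
      · exact apply_mem_support.2 (apply_mem_support.2 ha))
    rw [this, Finset.card_eq_three]
    exact ⟨a, x a, x (x a), ha'.symm, by grind, by grind, rfl⟩
  · obtain ⟨b, hb, hb'⟩ := Finset.not_subset.1 h
    have hb'' := mem_support.1 hb
    simp only [Finset.mem_insert, Finset.mem_singleton, not_or] at hb'
    refine ⟨a, b, ?_⟩
    have e3 := hx b
    have e4 := hx (x b)
    have e5 := hx (x (x b))
    have e6 := hx (x (x a))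
    simp only [List.nodup_cons, List.mem_cons, List.not_mem_nil, or_false, not_or,
      not_false_eq_true, List.nodup_nil, and_true]
    grind

theorem not_pow_of_seven {x : Perm α} (h3 : x ^ 3 = 1) {a b d : α}
    (h : [a, x a, x (x a), b, x b, x (x b), d].Nodup) :
    ∃ g : Perm α, sign g = 1 ∧ ¬ ((x⁻¹ * (g * x * g⁻¹)) ^ 2 = 1 ∨ (x⁻¹ * (g * x * g⁻¹)) ^ 15 = 1) := by
  have hx : ∀ y, x (x (x y)) = y := fun y => by
    have := congrArg (fun σ : Perm α => σ y) h3
    simpa [pow_succ] using this
  have hi : ∀ y, x⁻¹ y = x (x y) := fun y => by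
    rw [inv_eq_iff_eq, hx]
  simp only [List.nodup_cons, List.mem_cons, List.not_mem_nil, or_false, not_or,
    not_false_eq_true, List.nodup_nil, and_true] at h
  refine ⟨swap a b * swap (x a) d, by
    simp [sign_swap h.1.2.2.1, sign_swap h.2.1.2.2.2.2], ?_⟩
  have hz : x⁻¹ * (swap a b * swap (x a) d * x * (swap a b * swap (x a) d)⁻¹) =
      swap (x (x a)) (x (x b)) * swap a (x (x d)) * swap (x a) d * swap a b := by
    have k1 := swap_apply_apply x⁻¹ a b
    have k2 := swap_apply_apply x⁻¹ (x a) d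
    rw [hi a, hi b] at k1
    rw [hi (x a), hi d, hx a] at k2
    rw [k1, k2]
    simp only [mul_inv_rev, swap_inv, inv_inv]
    group
  rw [hz]
  have e1 := hx a
  have e2 := hx b
  have e3 := hx d
  have e4 := hx (x a)
  have e5 := hx (x b)
  have e6 := hx (x d)
  have e7 := hx (x (x a))
  have e8 := hx (x (x b))
  have e9 := hx (x (x d))
  have d1 : x (x d) ≠ a := by grind
  have d2 : x (x d) ≠ b := by grind
  have d3 : x (x d) ≠ x a := by grind
  have d4 : x (x d) ≠ x b := by grind
  have d5 : x (x d) ≠ x (x a) := by grind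
  have d6 : x (x d) ≠ x (x b) := by grind
  clear e1 e2 e3 e4 e5 e6 e7 e8 e9 hz hi hx h3
  generalize x (x d) = d' at *
  generalize x (x a) = a2 at *
  generalize x (x b) = b2 at *
  generalize x a = a1 at *
  generalize x b = b1 at *
  set z := swap a2 b2 * swap a d' * swap a1 d * swap a b with hz
  have z1 : z a2 = b2 := by simp only [hz, Perm.coe_mul, Function.comp_apply]; grind
  have z2 : z b2 = a2 := by simp only [hz, Perm.coe_mul, Function.comp_apply]; grind
  have z3 : z (z b) ≠ b := by
    have z4 : z b = d' := by simp only [hz, Perm.coe_mul, Function.comp_apply]; grind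
    rw [z4]
    simp only [hz, Perm.coe_mul, Function.comp_apply]
    by_cases e : d' = d <;> grind
  rintro (e | e)
  · exact z3 (by simpa [pow_succ] using congrArg (fun σ : Perm α => σ b) e)
  · have := congrArg (fun σ : Perm α => σ a2) e
    simp only [pow_succ, pow_zero, one_mul, Perm.coe_mul, Function.comp_apply, z1, z2, Perm.coe_one,
      id] at this
    grind

theorem isConj_of_six {x y : alternatingGroup α} (hx3 : x.1 ^ 3 = 1) (hy3 : y.1 ^ 3 = 1) {a b : α}
    (h : [a, x.1 a, x.1 (x.1 a), b, x.1 b, x.1 (x.1 b)].Nodup)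
    (hall : ∀ d, d ∈ [a, x.1 a, x.1 (x.1 a), b, x.1 b, x.1 (x.1 b)])
    (hy : y.1.support = Finset.univ) : IsConj x y := by
  have hx : ∀ z, x.1 (x.1 (x.1 z)) = z := fun z => by
    have := congrArg (fun σ : Perm α => σ z) hx3
    simpa [pow_succ] using this
  simp only [List.nodup_cons, List.mem_cons, List.not_mem_nil, or_false, not_or,
    not_false_eq_true, List.nodup_nil, and_true] at h hall
  have e1 := hx a
  have e2 := hx b
  have hxs : x.1.support = Finset.univ := Finset.eq_univ_of_forall fun d => by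
    rw [mem_support]
    rcases hall d with rfl | rfl | rfl | rfl | rfl | rfl <;> grind
  have : Fact (Nat.Prime 3) := ⟨Nat.prime_three⟩
  have hc : x.1.cycleType = y.1.cycleType := by
    have h1 := cycleType_of_pow_prime_eq_one hx3
    have h2 := cycleType_of_pow_prime_eq_one hy3
    have h3 := sum_cycleType x.1
    have h4 := sum_cycleType y.1
    rw [hxs, h1, Multiset.sum_replicate, smul_eq_mul] at h3
    rw [hy, h2, Multiset.sum_replicate, smul_eq_mul] at h4
    rw [h1, h2]
    congr 1
    omega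
  obtain ⟨g, hg⟩ := isConj_iff.1 (isConj_iff_cycleType_eq.2 hc)
  rcases Int.units_eq_one_or (sign g) with e | e
  · exact isConj_iff.2 ⟨⟨g, mem_alternatingGroup.2 e⟩, Subtype.ext hg⟩
  · set w := swap a b * swap (x.1 a) (x.1 b) * swap (x.1 (x.1 a)) (x.1 (x.1 b)) with hw
    have hwx : w * x.1 = x.1 * w := by
      ext d
      simp only [hw, Perm.coe_mul, Function.comp_apply]
      rcases hall d with rfl | rfl | rfl | rfl | rfl | rfl <;> grind
    refine isConj_iff.2 ⟨⟨g * w, mem_alternatingGroup.2 ?_⟩, Subtype.ext ?_⟩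
    · simp [hw, e, sign_swap h.1.2.2.1, sign_swap h.2.1.2.2.1, sign_swap h.2.2.1.2.2]
    · change g * w * x.1 * (g * w)⁻¹ = y.1
      rw [← hg, mul_assoc g, hwx]
      group

/-- The automorphism `φ` maps 3-cycles to 3-cycles. -/
def Pres3 (φ : MulAut (alternatingGroup α)) : Prop :=
  ∀ c : alternatingGroup α, c.1.IsThreeCycle → (φ c).1.IsThreeCycle

theorem isThreeCycle_of_isConj {x y : alternatingGroup α} (h : IsConj x y)
    (hx : x.1.IsThreeCycle) : y.1.IsThreeCycle :=
  (isConj_iff_cycleType_eq.1 ((alternatingGroup α).subtype.map_isConj h)).symm.trans hx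

theorem pres3_of_exists (h5 : 5 ≤ Fintype.card α) {φ : MulAut (alternatingGroup α)}
    {c : alternatingGroup α} (hc : c.1.IsThreeCycle) (h : (φ c).1.IsThreeCycle) : Pres3 φ :=
  fun _ hd => isThreeCycle_of_isConj (φ.toMonoidHom.map_isConj
    (alternatingGroup.isThreeCycle_isConj (by simpa using h5) hc hd)) h

theorem six_of_not (h5 : 5 ≤ Fintype.card α) (φ : MulAut (alternatingGroup α))
    {c : alternatingGroup α} (hc : c.1.IsThreeCycle) (h : ¬ (φ c).1.IsThreeCycle) :
    (φ c).1 ^ 3 = 1 ∧ ∃ a b, [a, (φ c).1 a, (φ c).1 ((φ c).1 a), b, (φ c).1 b,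
      (φ c).1 ((φ c).1 b)].Nodup ∧ ∀ d, d ∈ [a, (φ c).1 a, (φ c).1 ((φ c).1 a), b, (φ c).1 b,
      (φ c).1 ((φ c).1 b)] := by
  have h3 : (φ c).1 ^ 3 = 1 := by
    have : c ^ 3 = 1 := Subtype.ext (by
      change c.1 ^ 3 = 1
      rw [← hc.orderOf, pow_orderOf_eq_one])
    rw [← Subgroup.coe_pow, ← map_pow, this, map_one, Subgroup.coe_one]
  have h1 : (φ c).1 ≠ 1 := fun e => hc.ne_one (by
    have : c = 1 := (map_eq_one_iff _ φ.injective).1 (Subtype.ext e)
    rw [this]; rfl)
  obtain ⟨a, b, hab⟩ := exists_six h3 h1 h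
  refine ⟨h3, a, b, hab, fun d => ?_⟩
  by_contra hd
  obtain ⟨g, hg, hg'⟩ := not_pow_of_seven h3 (a := a) (b := b) (d := d) (by
    have := List.nodup_append.2 ⟨hab, List.nodup_singleton d, fun u hu v hv e => hd (by
      rw [List.mem_singleton.1 hv] at e; exact e ▸ hu)⟩
    exact this)
  obtain ⟨g', hg''⟩ := φ.surjective ⟨g, mem_alternatingGroup.2 hg⟩
  have h4 : (g' * c * g'⁻¹).1.IsThreeCycle := isThreeCycle_of_isConj (isConj_iff.2 ⟨g', rfl⟩) hc
  have e : ∀ k : ℕ, (c.1⁻¹ * (g' * c * g'⁻¹).1) ^ k = 1 →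
      ((φ c).1⁻¹ * (g * (φ c).1 * g⁻¹)) ^ k = 1 := by
    intro k hk
    have h6 : (c⁻¹ * (g' * c * g'⁻¹)) ^ k = 1 := Subtype.ext hk
    have h7 := congrArg (fun u => (φ u).1) h6
    simpa [hg''] using h7
  exact hg' ((mul_three_pow h5 hc.inv h4).imp (e 2) (e 15))

theorem pres3_sq (h5 : 5 ≤ Fintype.card α) (φ : MulAut (alternatingGroup α)) : Pres3 (φ ^ 2) := by
  intro c hc
  by_contra h
  have h1 : ¬ (φ c).1.IsThreeCycle := fun h' => h (pres3_of_exists h5 hc h' _ h')
  obtain ⟨e1, a, b, h2, h3⟩ := six_of_not h5 φ hc h1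
  obtain ⟨e2, a', b', h2', h3'⟩ := six_of_not h5 (φ ^ 2) hc h
  have h4 : IsConj (φ c) ((φ ^ 2) c) := isConj_of_six e1 e2 h2 h3 (Finset.eq_univ_of_forall fun d => by
    have hx : ∀ z, ((φ ^ 2) c).1 (((φ ^ 2) c).1 (((φ ^ 2) c).1 z)) = z := fun z => by
      have := congrArg (fun σ : Perm α => σ z) e2
      simpa [pow_succ] using this
    have f1 := hx a'
    have f2 := hx b'
    have f3 := h3' d
    simp only [List.nodup_cons, List.mem_cons, List.not_mem_nil, or_false, not_or,
      not_false_eq_true, List.nodup_nil, and_true] at h2' f3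
    rw [mem_support]
    rcases f3 with rfl | rfl | rfl | rfl | rfl | rfl <;> grind)
  have h5' : IsConj c (φ c) := by
    have := φ.symm.toMonoidHom.map_isConj h4
    simpa [sq] using this
  exact h1 (isThreeCycle_of_isConj h5' hc)

theorem pres3_one : Pres3 (1 : MulAut (alternatingGroup α)) := fun _ h => h

theorem Pres3.mul {φ ψ : MulAut (alternatingGroup α)} (h : Pres3 φ) (h' : Pres3 ψ) :
    Pres3 (φ * ψ) := fun c hc => h _ (h' c hc)

theorem Pres3.pow {φ : MulAut (alternatingGroup α)} (h : Pres3 φ) (k : ℕ) : Pres3 (φ ^ k) := by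
  induction k with
  | zero => rw [pow_zero]; exact pres3_one
  | succ k ih => rw [pow_succ]; exact ih.mul h

theorem pres3_conj (g : alternatingGroup α) : Pres3 (MulAut.conj g) := fun _ hc =>
  isThreeCycle_of_isConj (isConj_iff.2 ⟨g, rfl⟩) hc

theorem pres3_of_odd (h5 : 5 ≤ Fintype.card α) {φ : MulAut (alternatingGroup α)} {k : ℕ}
    (hk : Odd k) (h : φ ^ k = 1) : Pres3 φ := by
  obtain ⟨m, rfl⟩ := hk
  have := (pres3_sq h5 φ).pow (m + 1)
  rwa [← pow_mul, show 2 * (m + 1) = 2 * m + 1 + 1 by ring, pow_succ, h, one_mul] at this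

/-- The stabilizer of a point. -/
def ptStab (i : α) : Subgroup (alternatingGroup α) := (altOn {i}ᶜ).subgroupOf _

theorem Pres3.exists_map_ptStab (h4 : 4 ≤ Fintype.card α) {φ : MulAut (alternatingGroup α)}
    (h : Pres3 φ) (i : α) : ∃ j, (ptStab i).map φ.toMonoidHom = ptStab j := by
  let A := alternatingGroup α
  set ψ : A →* Perm α := A.subtype.comp φ.toMonoidHom with hψ
  have hψi : Function.Injective ψ := A.subtype_injective.comp φ.injective
  set H := (ptStab i).map ψ with hH
  have hci : ({i}ᶜ : Finset α).card = Fintype.card α - 1 := by rw [Finset.card_compl]; simp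
  obtain ⟨u, v, w, hu, hv, hw, huv, huw, hvw⟩ := Finset.two_lt_card_iff.1
    (show 2 < ({i}ᶜ : Finset α).card by omega)
  have hc₀ := isThreeCycle_swap_mul_swap_same huv huw hvw
  have hm₀ := swap_mul_swap_mem_altOn hu hv hu hw huv huw
  set c₀ : A := ⟨_, altOn_le_alt _ hm₀⟩
  have hc : (ψ c₀).IsThreeCycle := h c₀ hc₀
  have hcH : ψ c₀ ∈ H := mem_map_of_mem _ hm₀
  obtain ⟨a, ha⟩ := Finset.card_pos.1
    (show 0 < (ψ c₀).support.card by rw [hc.card_support]; decide)
  have hs := support_subset_cls hc hcH ha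
  have h1 : altOn {i}ᶜ ≤ ((normalizer (altOn (cls H a) : Set (Perm α))).comap ψ).map A.subtype :=
    altOn_le_of_forall fun c h2 h3 => by
      have hm : c ∈ altOn {i}ᶜ := mem_altOn.2 ⟨h2.sign, h3⟩
      exact ⟨⟨c, altOn_le_alt _ hm⟩, mem_normalizer_altOn fun y hy =>
        apply_mem_cls_of_isThreeCycle (h ⟨c, altOn_le_alt _ hm⟩ h2) (mem_map_of_mem _ hm) hy, rfl⟩
  have h2 : altOn {i}ᶜ ≤ ((altOn (cls H a)).comap ψ).map A.subtype := by
    refine altOn_le_of_normalized (fun g hg => ?_) hc₀ (mem_altOn.1 hm₀).2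
      ⟨c₀, mem_altOn.2 ⟨hc.sign, hs⟩, rfl⟩
    obtain ⟨g, hg', rfl⟩ := h1 hg
    exact le_normalizer_map _ (mem_map_of_mem _ (le_normalizer_comap _ hg'))
  have h3 : H = altOn (cls H a) := by
    refine le_antisymm ?_ (altOn_cls_le H a)
    rintro _ ⟨g, hg, rfl⟩
    obtain ⟨g', hg', e⟩ := h2 hg
    rwa [← Subtype.ext e]
  have h5 : 3 ≤ (cls H a).card := hc.card_support ▸ Finset.card_le_card hs
  have h6 : (cls H a).card = Fintype.card α - 1 := by
    have e1 := card_altOn (s := cls H a) (by omega)
    have e2 := card_altOn (s := ({i}ᶜ : Finset α)) (by omega)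
    have e3 : Nat.card H = Nat.card (altOn ({i}ᶜ : Finset α)) := by
      rw [hH, card_map_of_injective hψi, ptStab,
        Nat.card_congr (subgroupOfEquivOfLe (altOn_le_alt _)).toEquiv]
    rw [← h3, e3, e2, hci] at e1
    exact ((Nat.factorial_inj (by omega)).1 e1).symm
  obtain ⟨j, hj⟩ := Finset.card_eq_one.1 (show (cls H a)ᶜ.card = 1 by
    rw [Finset.card_compl, h6]; omega)
  refine ⟨j, ?_⟩
  rw [← map_subtype_inj, map_map, ← hψ, ← hH, h3, ptStab, map_subgroupOf_eq_of_le (altOn_le_alt _),
    ← hj, compl_compl]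

/-- A finite group acting on a normal self-centralizing alternating group by automorphisms
preserving the 3-cycles has order dividing `n!`. -/
theorem card_dvd_factorial_of_pres3 (h5 : 5 ≤ Fintype.card α) {X : Type*} [Group X] [Finite X]
    (Φ : X →* MulAut (alternatingGroup α)) (hΦ : Function.Injective Φ)
    (hin : ∀ g, MulAut.conj g ∈ Φ.range) (h : ∀ x, Pres3 (Φ x)) :
    Nat.card X ∣ (Fintype.card α).factorial := by
  let A := alternatingGroup α
  have hsimple : IsSimpleGroup A := alternatingGroup.isSimpleGroup (by simpa using h5)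
  have : Nonempty α := Fintype.card_pos_iff.1 (by omega)
  obtain ⟨i⟩ := this
  let _ : MulAction X (Subgroup A) :=
    { smul := fun x L => L.map (Φ x).toMonoidHom
      one_smul := fun L => by
        change L.map _ = L
        rw [map_one]; exact map_id L
      mul_smul := fun x y L => by
        change L.map _ = (L.map _).map _
        rw [map_mul, map_map]; rfl }
  set Y := MulAction.stabilizer X (ptStab i) with hY
  have h1 : Y.index ≤ Fintype.card α := by
    rw [hY, MulAction.index_stabilizer]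
    have : MulAction.orbit X (ptStab i) ⊆ Set.range (ptStab (α := α)) := by
      rintro _ ⟨x, rfl⟩
      obtain ⟨j, hj⟩ := (h x).exists_map_ptStab (by omega) i
      exact ⟨j, hj.symm⟩
    refine (Set.ncard_le_ncard this (Set.finite_range _)).trans ?_
    rw [← Set.image_univ]
    refine (Set.ncard_image_le).trans ?_
    rw [Set.ncard_univ, Nat.card_eq_fintype_card]
  have h2 : Y.normalCore = ⊥ := by
    -- the inner automorphisms in the core
    set N : Subgroup A := (Y.normalCore.map Φ).comap MulAut.conj with hN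
    have hNn : N.Normal := ⟨fun n hn g => by
      obtain ⟨y, hy, e⟩ := hn
      obtain ⟨x, hx⟩ := hin g
      exact ⟨x * y * x⁻¹, (normalCore_normal Y).conj_mem y hy x, by
        simp only [map_mul, map_inv, hx, e]⟩⟩
    rcases hNn.eq_bot_or_eq_top with e | e
    · rw [eq_bot_iff]
      intro y hy
      refine hΦ ((map_one Φ).symm ▸ MulEquiv.ext fun g => ?_)
      obtain ⟨x, hx⟩ := hin g
      have : Φ y g * g⁻¹ ∈ N := ⟨y * (x * y⁻¹ * x⁻¹), mul_mem hy
        ((normalCore_normal Y).conj_mem _ (inv_mem hy) x), by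
          ext z
          simp [hx, mul_assoc]⟩
      rw [e] at this
      exact mul_inv_eq_one.1 this
    · exfalso
      have hn : (ptStab i).Normal := normal_of_top_le fun g _ => by
        obtain ⟨y, hy, e'⟩ : g ∈ N := e ▸ mem_top g
        have : (ptStab i).map (Φ y).toMonoidHom = ptStab i := normalCore_le Y hy
        rw [e'] at this
        exact cj_eq_iff.1 this
      have hci : ({i}ᶜ : Finset α).card = Fintype.card α - 1 := by rw [Finset.card_compl]; simp
      obtain ⟨u, v, w, hu, hv, hw, huv, huw, hvw⟩ := Finset.two_lt_card_iff.1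
        (show 2 < ({i}ᶜ : Finset α).card by omega)
      rcases hn.eq_bot_or_eq_top with e' | e'
      · have hm₀ := swap_mul_swap_mem_altOn hu hv hu hw huv huw
        have : (⟨_, altOn_le_alt _ hm₀⟩ : A) ∈ ptStab i := hm₀
        rw [e'] at this
        exact (isThreeCycle_swap_mul_swap_same huv huw hvw).ne_one (congrArg Subtype.val this)
      · simp only [Finset.mem_compl, Finset.mem_singleton] at hu hv
        have hc := isThreeCycle_swap_mul_swap_same (Ne.symm hu) (Ne.symm hv) huv
        have : (⟨_, hc.mem_alternatingGroup⟩ : A) ∈ ptStab i := e' ▸ mem_top _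
        have : swap i u (swap i v i) = i := (mem_altOn'.1 this).2 i (by simp)
        grind
  have h3 : Function.Injective (MulAction.toPermHom X (X ⧸ Y)) := by
    rw [← MonoidHom.ker_eq_bot_iff, ← normalCore_eq_ker, h2]
  have h4 := card_dvd_of_injective _ h3
  rw [Nat.card_perm] at h4
  exact h4.trans (Nat.factorial_dvd_factorial h1)

end Cfsg.L0
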