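import Cfsg.Agent.H8.GNTr3
import Cfsg.Agent.H8.Deg4

/-! A characteristic subgroup (Glauberman's `K`, simplified) controlling transfer for `p ≥ 7`. -/

set_option autoImplicit false
set_option linter.unusedSectionVars false
universe u
open Subgroup Cfsg Cfsg.L0 Cfsg.H8
open scoped commutatorElement

namespace Cfsg.KT

section
variable {G : Type u} [Group G]

/-- degrees add up under a commutator pairing -/
theorem pair_deg [Finite G] {W D D1 E E1 : Subgroup G} {g : G} {a b : ℕ}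
    (hW : g ∈ normalizer (W : Set G)) (hD : g ∈ normalizer (D : Set G))
    (hE : g ∈ normalizer (E : Set G)) (hE1 : g ∈ normalizer (E1 : Set G)) (hle : E1 ≤ E)
    (hEE : ⁅E, E⁆ ≤ E1) (hWD : ⁅W, D⁆ ≤ E) (hEW : ∀ e ∈ E, ∀ w ∈ W, w * e * w⁻¹ * e⁻¹ ∈ E1)
    (hED : ∀ e ∈ E, ∀ d ∈ D, d * e * d⁻¹ * e⁻¹ ∈ E1) (hD1 : ⁅W, D1⁆ ≤ E1)
    (ha : ∀ d ∈ D, ic g (a + 1) d ∈ D1) (hb : ∀ e ∈ E, ic g (b + 1) e ∈ E1)
    {w d : G} (hw : w ∈ W) (hd : d ∈ D) : ⁅ic g (a + b + 1) w, d⁆ ∈ E1 := by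
  obtain ⟨V, _, ⟨C⟩⟩ := exists_secMap hle hEE
  obtain ⟨ρ, hρ⟩ := C.exists_end hE hE1
  have hm : ∀ i, ic g i w ∈ W := ic_mem hW hw
  have hn : ∀ i, ic g i d ∈ D := ic_mem hD hd
  have hc : ∀ {x y : G}, x ∈ W → y ∈ D → ⁅x, y⁆ ∈ E := fun hx hy =>
    hWD (commutator_mem_commutator hx hy)
  have hcj : ∀ {x e : G}, e ∈ E → x * e * x⁻¹ * e⁻¹ ∈ E1 →
      x * e * x⁻¹ ∈ E ∧ C.π (x * e * x⁻¹) = C.π e := by
    intro x e he h
    have h1 : x * e * x⁻¹ ∈ E := by simpa using E.mul_mem (hle h) he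
    exact ⟨h1, (C.eq_iff h1 he).2 h⟩
  let γ : ℕ → ℕ → V := fun i j => C.π ⁅ic g i w, ic g j d⁆
  have l1 : ∀ {x y z : G}, x ∈ W → y ∈ W → z ∈ D → C.π ⁅x * y, z⁆ = C.π ⁅x, z⁆ + C.π ⁅y, z⁆ := by
    intro x y z hx hy hz
    have e : ⁅x * y, z⁆ = x * ⁅y, z⁆ * x⁻¹ * ⁅x, z⁆ := by simp only [commutatorElement_def]; group
    obtain ⟨h1, h2⟩ := hcj (hc hy hz) (hEW _ (hc hy hz) x hx)
    rw [e, C.map_mul _ h1 _ (hc hx hz), h2, add_comm]
  have l2 : ∀ {x y z : G}, x ∈ W → y ∈ D → z ∈ D → C.π ⁅x, y * z⁆ = C.π ⁅x, y⁆ + C.π ⁅x, z⁆ := by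
    intro x y z hx hy hz
    have e : ⁅x, y * z⁆ = ⁅x, y⁆ * (y * ⁅x, z⁆ * y⁻¹) := by simp only [commutatorElement_def]; group
    obtain ⟨h1, h2⟩ := hcj (hc hx hz) (hED _ (hc hx hz) y hy)
    rw [e, C.map_mul _ (hc hx hy) _ h1, h2]
  let δ : V →+ V := ρ - AddMonoidHom.id V
  have hδ : ∀ i j, δ (γ i j) = γ (i + 1) j + γ i (j + 1) + γ (i + 1) (j + 1) := fun i j => by
    show ρ (γ i j) - γ i j = _
    rw [← hρ _ (hc (hm i) (hn j)), conjugate_commutatorElement, conj_ic_self, conj_ic_self,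
      l1 (hm _) (hm _) (D.mul_mem (hn _) (hn _)), l2 (hm _) (hn _) (hn _), l2 (hm _) (hn _) (hn _)]
    simp only [γ]; abel
  have e0 : ∀ k, ∀ y ∈ E, δ^[k] (C.π y) = C.π (ic g k y) := by
    intro k y hy
    induction k with
    | zero => rfl
    | succ k ih =>
      rw [Function.iterate_succ_apply', ih, ic_succ, C.map_commutator hE (ic_mem hE hy k),
        hρ _ (ic_mem hE hy k)]; rfl
  have z1 : ∀ k i j, b + 1 ≤ k → δ^[k] (γ i j) = 0 := fun k i j hk => by
    rw [e0 k _ (hc (hm i) (hn j)), C.eq_zero _ (ic_mem hE (hc (hm i) (hn j)) k)]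
    exact ic_mem_of_le hE1 hk (hb _ (hc (hm i) (hn j)))
  have z2 : ∀ k i j, a + 1 ≤ j → δ^[k] (γ i j) = 0 := fun k i j hj => by
    obtain ⟨m, rfl⟩ := Nat.exists_eq_add_of_le hj
    have : γ i (a + 1 + m) = 0 := by
      refine (C.eq_zero _ (hc (hm i) (hn _))).2 (hD1 (commutator_mem_commutator (hm i) ?_))
      rw [ic_add]; exact ha _ (hn m)
    rw [this, iterate_map_zero]
  have key : ∀ n t k j, a + 1 ≤ j + t → a + b + 1 ≤ k + j + n → δ^[k] (γ n j) = 0 := by
    intro n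
    induction n with
    | zero =>
      intro t k j _ h
      by_cases hk : b + 1 ≤ k
      · exact z1 k 0 j hk
      · exact z2 k 0 j (by omega)
    | succ n ih =>
      intro t
      induction t with
      | zero => intro k j h _; exact z2 k _ j h
      | succ t iht =>
        intro k j h1 h2
        have e := congrArg (δ^[k]) (hδ n j)
        rw [← Function.iterate_succ_apply, iterate_map_add, iterate_map_add,
          ih (a + 1) (k + 1) j (by omega) (by omega), ih (a + 1) k (j + 1) (by omega) (by omega),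
          iht k (j + 1) (by omega) (by omega)] at e
        simpa using e.symm
  exact (C.eq_zero _ (hc (hm _) hd)).1 (key (a + b + 1) (a + 1) 0 0 (by omega) (by omega))

/-- subgroups of class at most two normalized by `X` -/
def LL (P X : Subgroup G) : Subgroup G :=
  sSup {B | B ≤ P ∧ ⁅B, B⁆ ≤ centralizer (B : Set G) ∧ X ≤ normalizer (B : Set G)}

theorem LL_le (P X : Subgroup G) : LL P X ≤ P := sSup_le fun _ h => h.1

theorem le_LL {P X B : Subgroup G} (h1 : B ≤ P) (h2 : ⁅B, B⁆ ≤ centralizer (B : Set G))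
    (h3 : X ≤ normalizer (B : Set G)) : B ≤ LL P X := le_sSup ⟨h1, h2, h3⟩

theorem LL_le_iff {P X N : Subgroup G} : LL P X ≤ N ↔ ∀ B, B ≤ P →
    ⁅B, B⁆ ≤ centralizer (B : Set G) → X ≤ normalizer (B : Set G) → B ≤ N :=
  sSup_le_iff.trans ⟨fun h B h1 h2 h3 => h B ⟨h1, h2, h3⟩, fun h B hB => h B hB.1 hB.2.1 hB.2.2⟩

theorem LL_mono {P Q X Y : Subgroup G} (h : LL P X ≤ Q) (h' : Y ≤ X) : LL P X ≤ LL Q Y :=
  LL_le_iff.2 fun _ h1 h2 h3 => le_LL ((le_LL h1 h2 h3).trans h) h2 (h'.trans h3)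

theorem LL_anti (P : Subgroup G) {X Y : Subgroup G} (h' : Y ≤ X) : LL P X ≤ LL P Y :=
  LL_mono (LL_le P X) h'

/-- the greatest fixed point of `LL P ∘ LL P` -/
def KK (P : Subgroup G) : Subgroup G := sSup {X | X ≤ LL P (LL P X)}

theorem le_KK {P X : Subgroup G} (h : X ≤ LL P (LL P X)) : X ≤ KK P := le_sSup h

theorem KK_le_LL (P : Subgroup G) : KK P ≤ LL P (LL P (KK P)) :=
  sSup_le fun _ h => le_trans h (LL_anti P (LL_anti P (le_KK h)))

theorem KK_eq (P : Subgroup G) : LL P (LL P (KK P)) = KK P :=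
  le_antisymm (le_KK (LL_anti P (LL_anti P (KK_le_LL P)))) (KK_le_LL P)

theorem KK_le (P : Subgroup G) : KK P ≤ P := (KK_le_LL P).trans (LL_le _ _)

theorem LL_KK_le (P : Subgroup G) : LL P (KK P) ≤ KK P := le_KK (by rw [KK_eq])

theorem KK_eq_of_le {P Q : Subgroup G} (h1 : KK P ≤ Q) (h2 : Q ≤ P) : KK Q = KK P := by
  have e1 : LL Q (KK P) = LL P (KK P) := le_antisymm (LL_mono ((LL_le _ _).trans h2) le_rfl)
    (LL_mono ((LL_KK_le P).trans h1) le_rfl)
  refine le_antisymm (le_sup_left.trans (le_KK (X := KK Q ⊔ KK P) (sup_le ?_ ?_))) (le_KK ?_)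
  · refine (KK_le_LL Q).trans (LL_mono ((LL_le _ _).trans h2) (LL_mono ?_ le_sup_left))
    exact (LL_anti P le_sup_right).trans ((LL_KK_le P).trans h1)
  · exact (KK_le_LL P).trans (LL_anti P (LL_anti P le_sup_right))
  · rw [e1]
    exact (KK_le_LL P).trans (LL_mono ((KK_eq P).le.trans h1) le_rfl)

theorem map_LL {G' : Type u} [Group G'] {i : G →* G'} (hi : Function.Injective i)
    (P X : Subgroup G) : (LL P X).map i = LL (P.map i) (X.map i) := by
  have hc : ∀ B : Subgroup G, ⁅B, B⁆ ≤ centralizer (B : Set G) ↔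
      ⁅B.map i, B.map i⁆ ≤ centralizer (B.map i : Set G') := fun B => by
    rw [← commutator_eq_bot_iff_le_centralizer, ← commutator_eq_bot_iff_le_centralizer,
      ← Subgroup.map_commutator, ← Subgroup.map_commutator, Subgroup.map_eq_bot_iff_of_injective _ hi]
  have hn : ∀ B : Subgroup G, X ≤ normalizer (B : Set G) ↔
      X.map i ≤ normalizer (B.map i : Set G') := fun B => by
    refine ⟨fun h => (map_mono h).trans (le_normalizer_map i), fun h x hx => ?_⟩
    have h1 := h (mem_map_of_mem i hx)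
    rw [mem_normalizer_iff] at h1 ⊢
    intro y
    rw [← mem_map_iff_mem hi (K := B) (x := y), h1, ← mem_map_iff_mem hi (K := B)]
    simp
  refine le_antisymm (map_le_iff_le_comap.2 (LL_le_iff.2 fun B h1 h2 h3 => map_le_iff_le_comap.1
    (le_LL (map_mono h1) ((hc B).1 h2) ((hn B).1 h3)))) (LL_le_iff.2 fun B h1 h2 h3 => ?_)
  have e : (B.comap i).map i = B := map_comap_eq_self (h1.trans (map_le_range i P))
  rw [← e] at h1 h2 h3 ⊢
  exact map_mono (le_LL ((map_le_map_iff_of_injective hi).1 h1) ((hc _).2 h2) ((hn _).2 h3))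

theorem map_KK {G' : Type u} [Group G'] {i : G →* G'} (hi : Function.Injective i)
    (P : Subgroup G) : (KK P).map i = KK (P.map i) := by
  refine le_antisymm (le_KK ?_) ?_
  · rw [← map_LL hi, ← map_LL hi, KK_eq]
  · have e : ((KK (P.map i)).comap i).map i = KK (P.map i) :=
      map_comap_eq_self ((KK_le _).trans (map_le_range i P))
    rw [← e]
    refine map_mono (le_KK ((map_le_map_iff_of_injective hi).1 ?_))
    rw [map_LL hi, map_LL hi, e, KK_eq]

theorem normalizer_le_KK (P : Subgroup G) :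
    normalizer (P : Set G) ≤ normalizer (KK P : Set G) := fun g hg => by
  rw [H7.mem_normalizer_iff_cj] at *
  exact (map_KK (MulAut.conj g).injective P).trans (congrArg _ hg)

end

variable {G : Type u} [Group G] [Finite G] {p : ℕ} [hp : Fact p.Prime]

theorem KK_ne_bot {P : Subgroup G} (hP : IsPGroup p P) (h : P ≠ ⊥) : KK P ≠ ⊥ := fun e =>
  H7.inf_centralizer_ne_bot hP hP le_normalizer h (eq_bot_iff.2 (le_trans (le_LL inf_le_left
    (((commutator_le_self _).trans inf_le_right).trans (H7.centralizer_anti inf_le_left))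
    ((KK_le P).trans (H7.le_normalizer_inf le_normalizer
      (H7.le_normalizer_centralizer le_normalizer)))) ((LL_KK_le P).trans e.le)))

/-- Thompson's critical subgroup -/
theorem exists_crit {P : Subgroup G} (hP : IsPGroup p P) :
    ∃ C : Subgroup G, C ≤ P ∧ normalizer (P : Set G) ≤ normalizer (C : Set G) ∧
      ⁅C, P⁆ ≤ centralizer (C : Set G) ∧ P ⊓ centralizer (C : Set G) ≤ C := by
  obtain ⟨A, ⟨a1, a2, a3⟩, a4⟩ := exists_max_card (P := fun A : Subgroup G => A ≤ P ∧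
    normalizer (P : Set G) ≤ normalizer (A : Set G) ∧ A ≤ centralizer (A : Set G))
    ⟨⊥, bot_le, le_normalizer_bot _, bot_le⟩
  let C := P ⊓ centralizer (A : Set G) ⊓ H7.stab P A
  have c1 : normalizer (P : Set G) ≤ normalizer (C : Set G) :=
    H7.le_normalizer_inf (H7.le_normalizer_inf le_rfl (H7.le_normalizer_centralizer a2))
      (H7.le_normalizer_stab le_rfl a2)
  have hA : P ≤ normalizer (A : Set G) := le_normalizer.trans a2
  have c2 : A ≤ C := le_inf (le_inf a1 a3) (H7.le_stab_iff.2 ⟨le_normalizer,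
    H7.commutator_le_right_of_le_normalizer hA⟩)
  have c3 : ⁅C, P⁆ ≤ A := by
    rw [commutator_comm]
    exact (commutator_mono le_rfl inf_le_right).trans (H7.commutator_stab_le P A)
  have c4 : A ≤ centralizer (C : Set G) := le_centralizer_iff.1 (inf_le_left.trans inf_le_right)
  have c5 : C ≤ P := inf_le_left.trans inf_le_left
  refine ⟨C, c5, c1, c3.trans c4, le_trans ?_ c2⟩
  by_contra hn
  obtain ⟨W, w1, w2, w3, -⟩ := H7.exists_not_le_commutator_le hP
    (V := P ⊓ centralizer (C : Set G)) inf_le_left (H7.le_normalizer_inf le_normalizer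
      (H7.le_normalizer_centralizer (le_normalizer.trans c1))) hn
  have w4 : W ≤ C := le_inf (w1.trans (inf_le_inf_left _ (H7.centralizer_anti c2)))
    (H7.le_stab_iff.2 ⟨w1.trans (inf_le_left.trans hA), by
      rw [commutator_comm]; exact w3.trans inf_le_left⟩)
  refine w2 ((le_inf w4 (w1.trans inf_le_right)).trans
    (H7.eq_of_le_of_card_le (le_inf c2 c4) (a4 _ ⟨inf_le_left.trans c5,
      H7.le_normalizer_inf c1 (H7.le_normalizer_centralizer c1),
      inf_le_right.trans (H7.centralizer_anti inf_le_left)⟩)).ge)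

/-- an element acting cubically on a critical subgroup has degree at most five on a top section -/
theorem deg_of_cubic {H Q C W : Subgroup G} {g : G} (hQ : IsPGroup p Q) (hQH : Q ≤ H)
    (hn : H ≤ normalizer (Q : Set G)) (c1 : C ≤ Q) (c2 : H ≤ normalizer (C : Set G))
    (c3 : ⁅C, Q⁆ ≤ centralizer (C : Set G)) (c4 : Q ⊓ centralizer (C : Set G) ≤ C) (hg : g ∈ H)
    (h3 : ∀ c ∈ C, ic g 3 c = 1) (hW : W ≤ Q) (hWn : H ≤ normalizer (W : Set G)) (hb : W ≠ ⊥) :
    ∃ W', W' < W ∧ H ≤ normalizer (W' : Set G) ∧ ∀ w ∈ W, ic g 5 w ∈ W' := by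
  by_cases hC : W ≤ centralizer (C : Set G)
  · refine ⟨⊥, bot_lt_iff_ne_bot.2 hb, le_normalizer_bot _, fun w hw => ?_⟩
    exact ic_mem_of_le (le_normalizer_bot H hg) (by omega : 3 ≤ 5)
      (mem_bot.2 (h3 w (c4 ⟨hW hw, hC hw⟩)))
  obtain ⟨D, ⟨d1, d2, d3⟩, d4⟩ := exists_min_card (P := fun D : Subgroup G => D ≤ C ∧
    H ≤ normalizer (D : Set G) ∧ ¬ W ≤ centralizer (D : Set G)) ⟨C, le_rfl, c2, hC⟩
  have d5 : D ≠ ⊥ := fun h => d3 (by rw [h, H7.centralizer_bot']; exact le_top)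
  have d6 := commutator_lt_of_isPGroup hQ (hQ.to_le (d1.trans c1)) (hQH.trans d2) d5
  have d7 : W ≤ centralizer ((⁅D, Q⁆ : Subgroup G) : Set G) := by
    by_contra h
    exact (d4 _ ⟨d6.le.trans d1, H7.le_normalizer_commutator d2 hn, h⟩).not_gt (card_lt_of_lt d6)
  have d8 : ⁅D, Q⁆ ≤ centralizer (C : Set G) := (commutator_mono d1 le_rfl).trans c3
  refine ⟨W ⊓ centralizer (D : Set G), inf_lt_left.2 d3,
    H7.le_normalizer_inf hWn (H7.le_normalizer_centralizer d2), fun w hw => ⟨ic_mem (hWn hg) hw 5,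
      fun d hd => ?_⟩⟩
  have := pair_deg (D1 := ⊥) (E := ⁅D, Q⁆) (E1 := ⊥) (a := 2) (b := 2) (hWn hg) (d2 hg)
    (H7.le_normalizer_commutator d2 hn hg) (le_normalizer_bot H hg) bot_le
    (H7.commutator_le_of_le_centralizer (le_centralizer_iff.1 (d8.trans
      (H7.centralizer_anti (d6.le.trans d1)))))
    (by rw [commutator_comm]; exact commutator_mono le_rfl hW)
    (fun e he x hx => by rw [mem_bot, ← d7 hx e he]; group)
    (fun e he x hx => by rw [mem_bot, d8 he x (d1 hx)]; group)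
    (by rw [commutator_bot_right]) (fun c hc => mem_bot.2 (h3 c (d1 hc)))
    (fun c hc => mem_bot.2 (h3 c (d1 (d6.le hc)))) hw hd
  exact (commutatorElement_eq_one_iff_mul_comm.1 (mem_bot.1 this)).symm

variable (p) in
/-- the control family consisting of `N(KK)` -/
noncomputable def kFam : CtrlFam.{u} p where
  R b _ _ _ T W := b = false ∧ T ≠ ⊥ ∧ W = KK T
  le := fun h => h.2.2 ▸ KK_le _
  ne_bot := fun hT h => h.2.2 ▸ KK_ne_bot hT h.2.1
  norm := fun h => h.2.2 ▸ normalizer_le_KK _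
  cn := fun h => by rw [h.1, h.2.2]; exact le_normalizer.trans (normalizer_le_KK _)
  map := fun {b} _ _ _ _ _ _ f T _ hf h => ⟨h.1, fun e => h.2.1 (by
      rw [← hf, left_eq_inf, ← Subgroup.map_eq_bot_iff]; exact e), by
    rw [h.2.2]; exact map_functor (fun hi T => map_KK hi T) hf⟩
  comap := fun {b} _ _ _ _ _ _ f T _ hf h => ⟨_, ⟨h.1, fun e => h.2.1 (by
      rw [e, Subgroup.map_bot]), rfl⟩, by
    rw [h.2.2]; exact map_functor (fun hi T => map_KK hi T) hf⟩

theorem kFam_local (hp7 : 7 ≤ p) : (kFam.{u} p).Local := fun G _ _ P M hP h1 h2 h3 _ h5 => by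
  rw [← H7.pCoreOf_top]
  set Q := pCoreOf p (⊤ : Subgroup G) with hQ
  have hQp : IsPGroup p Q := H7.isPGroup_pCoreOf p ⊤
  have hQn : ⊤ ≤ normalizer (Q : Set G) := H7.le_normalizer_pCoreOf p ⊤
  have hQP : Q ≤ P := hP.le_of_normalizes hQp le_top (le_top.trans hQn)
  by_cases h0 : P = ⊥
  · rw [(le_bot_iff.1 (hQP.trans h0.le) : Q = ⊥), commutator_bot_left]; exact bot_le
  have hK : ¬ KK P ≤ Q := fun h => h5 false _ ⟨rfl, h0, rfl⟩ (top_le_iff.1 (by
    rw [← KK_eq_of_le h hQP]; exact hQn.trans (normalizer_le_KK Q)))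
  rw [← KK_eq, LL_le_iff] at hK
  push Not at hK
  obtain ⟨B, b1, b2, b3, b4⟩ := hK
  obtain ⟨g, hgB, hgQ⟩ := SetLike.not_le_iff_exists.1 b4
  obtain ⟨C, c1, c2, c3, c4⟩ := exists_crit hQp
  have c5 : C ≤ normalizer (B : Set G) := le_trans (le_LL (c1.trans hQP)
    ((commutator_mono le_rfl c1).trans c3) (le_top.trans (hQn.trans c2))) b3
  refine local_of_deg hP h1 le_top (fun h => h2 (top_le_iff.1 h)) (fun K k1 _ k2 => h3 K k1 k2)
    fun W w1 w2 w3 _ => ?_
  obtain ⟨W', e1, e2, e3⟩ := deg_of_cubic hQp le_top hQn c1 (hQn.trans c2) c3 c4 (mem_top g)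
    (fun c hc => by
      have f1 : ⁅g, c⁆ ∈ B := by
        rw [← commutatorElement_inv]
        exact B.inv_mem (commutatorElement_mem_of_normalizer (c5 hc) hgB)
      exact commutatorElement_eq_one_iff_mul_comm.2
        (b2 (commutator_mem_commutator hgB f1) g hgB)) w1 w2 w3
  exact ⟨W', e1, e2, g, b1 hgB, hgQ, fun w hw => ic_mem_of_le (e2 (mem_top g)) (by omega) (e3 w hw)⟩

theorem k_transfer (hp7 : 7 ≤ p) {P H F : Subgroup G} (hP : IsSyl p P H) (hF : ⁅P, P⁆ ≤ F)
    (h : P ⊓ ⁅H ⊓ normalizer (KK P : Set G), H ⊓ normalizer (KK P : Set G)⁆ ≤ F) :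
    P ⊓ ⁅H, H⁆ ≤ F := (kFam_local hp7).transfer hP hF fun b W e => by
  rw [e.1, e.2.2]; exact h

theorem not_le_commutator (hp7 : 7 ≤ p) (n : ℕ) : ∀ (G : Type u) [Group G] [Finite G]
    (P H : Subgroup G), Nat.card H = n → IsSyl p P H → P ≠ ⊥ →
    (∀ g ∈ H, g ∈ normalizer (P : Set G) → (orderOf g).Coprime p → g ∈ centralizer (P : Set G)) →
    ¬ P ≤ ⁅H, H⁆ := by
  induction n using Nat.strong_induction_on with | _ n ih => ?_
  intro G _ _ P H hn hP hb hN hle
  set K := KK P with hK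
  have hKP : K ≤ P := KK_le P
  have hKb : K ≠ ⊥ := KK_ne_bot hP.isPGroup hb
  have hPK : P ≤ normalizer (K : Set G) := le_normalizer.trans (normalizer_le_KK P)
  by_cases hH : H ≤ normalizer (K : Set G)
  swap
  · have h1 : IsSyl p P (H ⊓ normalizer (K : Set G)) := hP.mono (le_inf hP.le hPK) inf_le_left
    refine ih _ (hn ▸ card_lt_of_lt (inf_lt_left.2 hH)) G P _ rfl h1 hb
      (fun g hg => hN g hg.1) ((le_inf le_rfl hle).trans (k_transfer hp7 hP
        (commutator_mono h1.le h1.le) inf_le_right))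
  by_cases hPK' : P ≤ K
  · have e : K = P := le_antisymm hKP hPK'
    rw [e] at hH
    have h7 : H ≤ pResidualOf p H ⊔ P := hP.le_sup_of_relIndex (relIndex_eq_pow_of_forall
      (H7.le_normalizer_pResidualOf p H) fun x hx => H7.exists_pow_mem_pResidualOf hx)
    have h1 : ⁅P, H⁆ ≤ ⁅P, P⁆ := by
      refine (H7.le_stab_iff.1 (h7.trans (sup_le (H7.pResidualOf_le_iff.2 fun x hx hc => ?_)
        (H7.le_stab_iff.2 ⟨H7.le_normalizer_commutator le_normalizer le_normalizer, le_rfl⟩)))).2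
      refine ⟨H7.le_normalizer_commutator hH hH hx, fun y hy => ?_⟩
      rw [commutatorElement_eq_one_iff_mul_comm.2 (hN x hx (hH hx) hc y hy)]
      exact one_mem _
    exact (commutator_lt_of_isPGroup hP.isPGroup hP.isPGroup le_normalizer hb).not_ge
      ((le_inf le_rfl hle).trans (inf_commutator_le_of_central hP le_rfl h1 le_rfl))
  have hKH : K ≤ H := hKP.trans hP.le
  have hnm : (K.subgroupOf H).Normal := (normal_subgroupOf_iff_le_normalizer hKH).2 hH
  let f := QuotientGroup.mk' (K.subgroupOf H)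
  have hfs : Function.Surjective f := QuotientGroup.mk'_surjective _
  have hf : up f ⊥ = K := by rw [up_bot_mk']; exact inf_eq_left.2 hKH
  have hlt : Nat.card (⊤ : Subgroup (H ⧸ K.subgroupOf H)) < n := by
    rw [← down_top hfs, card_down f le_rfl, hf, ← hn, ← card_mul_relIndex hKH]
    have h1 : 1 < Nat.card K := (one_lt_card_iff_ne_bot K).2 hKb
    have h2 := relIndex_pos K H
    nlinarith
  have hsyl : IsSyl p (down f P) ⊤ := by
    have := hP.down f le_rfl
    rwa [down_top hfs] at this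
  refine ih _ hlt _ (down f P) ⊤ rfl hsyl (fun h => hPK' (by
    rw [down_eq_bot_iff hP.le, hf] at h; exact h)) (fun y _ hy hc => ?_) (by
      rw [← down_top hfs, ← down_commutator f le_rfl le_rfl]; exact down_mono f hle)
  obtain ⟨x, rfl⟩ := hfs y
  obtain ⟨k, hk⟩ := H7.exists_coprime_orderOf_pow (p := p) (orderOf_pos (x : G)).ne'
  have h1 : (x : G) ∈ normalizer (P : Set G) := by
    have := up_normalizer_le f (down f P) (coe_mem_up.2 hy)
    rwa [up_down_of_le f hP.le (hf.le.trans hKP)] at this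
  have h2 := hN _ (H.pow_mem x.2 _) (pow_mem h1 _) hk
  refine H8.mem_of_pow_mem (hc.pow_right k) (by rw [pow_orderOf_eq_one]; exact one_mem _) ?_
  rintro _ ⟨z, hz, rfl⟩
  rw [← map_pow, ← map_mul, ← map_mul]
  congr 1
  exact Subtype.ext (h2 z hz)

end Cfsg.KT
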