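import Cfsg.Agent.L0.Subnormal
import Mathlib.GroupTheory.Transfer

/-! Wielandt's transfer argument: a homomorphism of `M` to an abelian group that kills all
intersections `M ∩ M^g` (`g ∉ M`) extends to the whole group. -/

set_option autoImplicit false

namespace Cfsg.L0

open Subgroup MulAction

theorem transfer_eq_of_kills {G A : Type*} [Group G] [Finite G] [CommGroup A] {M : Subgroup G}
    (ϕ : M →* A) (h : ∀ g : G, g ∉ M → ∀ x : M, g * x * g⁻¹ ∈ M → ϕ x = 1) (x : M) :
    MonoidHom.transfer ϕ (x : G) = ϕ x := by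
  classical
  have := Fintype.ofFinite (Quotient (orbitRel (zpowers (x : G)) (G ⧸ M)))
  rw [MonoidHom.transfer_eq_prod_quotient_orbitRel_zpowers_quot]
  have hfix : ∀ y : G, y ∈ M → y • ((1 : G) : G ⧸ M) = ((1 : G) : G ⧸ M) := fun y hy => by
    rw [MulAction.Quotient.smul_mk, QuotientGroup.eq]; simpa using hy
  have hq : ∀ q : Quotient (orbitRel (zpowers (x : G)) (G ⧸ M)),
      q = Quotient.mk _ ((1 : G) : G ⧸ M) ↔ q.out.out ∈ M := by
    intro q
    constructor
    · intro e
      have h1 : q.out ∈ orbit (zpowers (x : G)) ((1 : G) : G ⧸ M) := by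
        rw [← orbitRel_apply, ← Quotient.eq, Quotient.out_eq]; exact e
      obtain ⟨⟨y, hy⟩, e2⟩ := h1
      have h2 : q.out = ((1 : G) : G ⧸ M) := e2.symm.trans (hfix y (zpowers_le.2 x.2 hy))
      have h3 : ((q.out.out : G) : G ⧸ M) = ((1 : G) : G ⧸ M) := by rw [QuotientGroup.out_eq', h2]
      simpa using QuotientGroup.eq.1 h3.symm
    · intro e
      have h3 : q.out = ((1 : G) : G ⧸ M) := by
        rw [← QuotientGroup.out_eq' q.out, eq_comm, QuotientGroup.eq]; simpa using e
      rw [← h3, Quotient.out_eq]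
  rw [Finset.prod_eq_single (Quotient.mk _ ((1 : G) : G ⧸ M))]
  · set q : Quotient (orbitRel (zpowers (x : G)) (G ⧸ M)) := Quotient.mk _ ((1 : G) : G ⧸ M)
    have e : q.out.out ∈ M := (hq q).1 rfl
    have h3 : q.out = ((1 : G) : G ⧸ M) := by
      rw [← QuotientGroup.out_eq' q.out, eq_comm, QuotientGroup.eq]; simpa using e
    have h4 : Function.minimalPeriod ((x : G) • ·) q.out = 1 := by
      rw [Function.minimalPeriod_eq_one_iff_isFixedPt, h3]; exact hfix x x.2
    have h5 : ϕ x = ϕ ((⟨_, e⟩ : M)⁻¹ * x * ⟨_, e⟩) := by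
      simp only [map_mul, map_inv]; rw [mul_comm, ← mul_assoc, mul_inv_cancel, one_mul]
    rw [h5]
    congr 1
    ext
    simp [h4]
  · intro q _ hne
    refine h q.out.out (fun e => hne ((hq q).2 e)) _ ?_
    simpa [mul_assoc] using pow_mem x.2 _
  · simp

/-- If `H ⊴ M` has abelian quotient and contains `M ∩ M^g` for all `g ∉ M`, then some normal
subgroup of `G` meets `M` in `H`. -/
theorem exists_normal_inf_eq_of_inter_le {G : Type*} [Group G] [Finite G] {H M : Subgroup G}
    (hHM : H ≤ M) (hc : ⁅M, M⁆ ≤ H) (h : ∀ g : G, g ∉ M → M ⊓ cj g M ≤ H) :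
    ∃ K : Subgroup G, K.Normal ∧ K ⊓ M = H ∧ ⁅(⊤ : Subgroup G), (⊤ : Subgroup G)⁆ ≤ K := by
  have hn : (H.subgroupOf M).Normal := (normal_subgroupOf_iff_le_normalizer hHM).2
    (le_normalizer_iff_commutator_le_left.2 ((commutator_mono hHM le_rfl).trans hc))
  have hcomm : IsMulCommutative (M ⧸ H.subgroupOf M) := by
    refine ⟨⟨fun a b => ?_⟩⟩
    obtain ⟨a, rfl⟩ := QuotientGroup.mk_surjective a
    obtain ⟨b, rfl⟩ := QuotientGroup.mk_surjective b
    rw [← QuotientGroup.mk_mul, ← QuotientGroup.mk_mul, QuotientGroup.eq, mem_subgroupOf]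
    have := hc (commutator_mem_commutator (inv_mem b.2) (inv_mem a.2))
    simpa [commutatorElement_def, mul_assoc] using this
  let _ : CommGroup (M ⧸ H.subgroupOf M) := { mul_comm := hcomm.is_comm.comm }
  have key := transfer_eq_of_kills (QuotientGroup.mk' (H.subgroupOf M)) (fun g hg x hx => by
    rw [QuotientGroup.mk'_apply, QuotientGroup.eq_one_iff, mem_subgroupOf]
    exact h g⁻¹ (fun e => hg (by simpa using inv_mem e)) ⟨x.2, mem_cj.2 (by simpa using hx)⟩)
  refine ⟨(MonoidHom.transfer (QuotientGroup.mk' (H.subgroupOf M))).ker, inferInstance, ?_,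
    Abelianization.commutator_subset_ker _⟩
  ext x
  constructor
  · rintro ⟨h1, h2⟩
    have := key ⟨x, h2⟩
    rw [MonoidHom.mem_ker.1 h1, eq_comm, QuotientGroup.mk'_apply, QuotientGroup.eq_one_iff] at this
    exact this
  · intro hx
    refine ⟨?_, hHM hx⟩
    have := key ⟨x, hHM hx⟩
    refine MonoidHom.mem_ker.2 (this.trans ?_)
    rw [QuotientGroup.mk'_apply, QuotientGroup.eq_one_iff]
    exact hx

end Cfsg.L0
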